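import Cfsg.Agent.H52.RegPair.Semilinear

/-! The class two normal layer of a primitive soluble linear group. -/

set_option autoImplicit false
set_option linter.unusedSectionVars false
set_option linter.style.haveILetI false

namespace Cfsg.Agent.H67.Base3

open Cfsg.Agent.H52.RegPair (Inv Irr Imprim SemiData exists_semiData)
open scoped Polynomial

universe u

/-- The commutator. -/
def cm {G : Type*} [Group G] (x y : G) : G := x * y * x⁻¹ * y⁻¹

theorem cm_eq_one {G : Type*} [Group G] {x y : G} : cm x y = 1 ↔ x * y = y * x := by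
  rw [cm, mul_inv_eq_one, mul_inv_eq_iff_eq_mul]

theorem cm_mul_eq {G : Type*} [Group G] (x y : G) : x * y = cm x y * (y * x) := by
  simp only [cm]; group

/-- A maximal abelian normal subgroup `U`, its scalars, and a class two normal subgroup above it. -/
structure Layer (G : Type u) [Group G] (V : Type u) [AddCommGroup V] [DistribMulAction G V]
    (K : Type u) [Field K] [Module K V] where
  U : Subgroup G
  E : Subgroup G
  S : SemiData G V U K
  U_normal : U.Normal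
  E_normal : E.Normal
  U_le : U ≤ E
  U_comm : ∀ a ∈ U, ∀ b ∈ U, a * b = b * a
  E_cent : ∀ x ∈ E, x ∈ Subgroup.centralizer (U : Set G)
  E_comm : ∀ x ∈ E, ∀ y ∈ E, cm x y ∈ U
  U_max : ∀ N : Subgroup G, N.Normal → U ≤ N → (∀ a ∈ N, ∀ b ∈ N, a * b = b * a) → N ≤ U
  cent_E : ∀ g ∈ Subgroup.centralizer (U : Set G), (∀ y ∈ E, g * y = y * g) → g ∈ U

theorem exists_layer {G : Type u} [Group G] [Finite G] {V : Type u} [AddCommGroup V]
    [DistribMulAction G V] [Finite V] [Nontrivial V] (hs : Group.IsSolvable G) (hirr : Irr G V)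
    (hnim : ¬ Imprim G V) :
    ∃ (K : Type u) (_ : Field K) (_ : Module K V), Finite K ∧ Nonempty (Layer G V K) := by
  classical
  haveI := hs
  obtain ⟨U, ⟨hUn, hUab⟩, hUmax⟩ := (Set.toFinite
    {U : Subgroup G | U.Normal ∧ ∀ a ∈ U, ∀ b ∈ U, a * b = b * a}).exists_maximal
    ⟨⊥, inferInstance, fun a ha b hb => by rw [Subgroup.mem_bot] at ha hb; rw [ha, hb]⟩
  haveI := hUn
  obtain ⟨K, fK, mK, hKfin, ⟨S⟩⟩ := exists_semiData hirr hnim U hUab
  let B : Subgroup G := Subgroup.centralizer (U : Set G)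
  have hB : ∀ {g : G}, g ∈ B ↔ ∀ x ∈ U, x * g = g * x := fun {g} => Subgroup.mem_centralizer_iff
  haveI hBn : B.Normal := inferInstance
  have hUB : U ≤ B := fun g hg => hB.2 fun x hx => hUab x hx g hg
  obtain ⟨E, hEmem, hEmax⟩ := (Set.toFinite {E : Subgroup G | E.Normal ∧ U ≤ E ∧ E ≤ B ∧
    ∀ x ∈ E, ∀ y ∈ E, cm x y ∈ U}).exists_maximal
    ⟨U, hUn, le_rfl, hUB, fun x hx y hy => U.mul_mem (U.mul_mem (U.mul_mem hx hy) (U.inv_mem hx))
      (U.inv_mem hy)⟩
  obtain ⟨hEn, hUE, hEB, hEc⟩ := hEmem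
  haveI := hEn
  have hmax : ∀ N : Subgroup G, N.Normal → U ≤ N → (∀ a ∈ N, ∀ b ∈ N, a * b = b * a) → N ≤ U :=
    fun N hN hUN hab => hUmax ⟨hN, hab⟩ hUN
  refine ⟨K, fK, mK, hKfin, ⟨⟨U, E, S, hUn, hEn, hUE, hUab, hEB, hEc, hmax, ?_⟩⟩⟩
  intro g₀ hg₀ hg₀E
  by_contra hg₀U
  let C : Subgroup G := B ⊓ Subgroup.centralizer (E : Set G)
  haveI hCn : C.Normal := inferInstance
  let D : ℕ → Subgroup G := fun n => (derivedSeries C n).map C.subtype
  have hDn : ∀ n, (D n).Normal := fun n => inferInstance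
  haveI : Group.IsSolvable C := inferInstance
  obtain ⟨N, hN⟩ := Group.IsSolvable.solvable (G := C)
  have hex : ∃ n, D n ≤ U := ⟨N, by simp only [D]; rw [hN, Subgroup.map_bot]; exact bot_le⟩
  have hn0 : Nat.find hex ≠ 0 := by
    intro h0
    have := Nat.find_spec hex
    rw [h0] at this
    exact hg₀U (this ⟨⟨g₀, hg₀, Subgroup.mem_centralizer_iff.2 fun y hy => (hg₀E y hy).symm⟩,
      Subgroup.mem_top _, rfl⟩)
  obtain ⟨n, hn⟩ := Nat.exists_eq_succ_of_ne_zero hn0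
  have hDU : ¬ D n ≤ U := Nat.find_min hex (by omega)
  have hDC : D n ≤ C := Subgroup.map_subtype_le _
  have hD1 : ∀ a ∈ D n, ∀ b ∈ D n, cm a b ∈ U := by
    rintro _ ⟨a, ha, rfl⟩ _ ⟨b, hb, rfl⟩
    refine (by have := Nat.find_spec hex; rwa [hn] at this : D (n + 1) ≤ U) ⟨cm a b, ?_, by simp [cm]⟩
    rw [derivedSeries_succ]
    exact Subgroup.commutator_mem_commutator ha hb
  haveI := hDn n
  have hE' : ∀ x ∈ E ⊔ D n, ∀ y ∈ E ⊔ D n, cm x y ∈ U := by
    intro x hx y hy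
    obtain ⟨a, ha, d, hd, rfl⟩ := Subgroup.mem_sup_of_normal_left.1 hx
    obtain ⟨a', ha', d', hd', rfl⟩ := Subgroup.mem_sup_of_normal_left.1 hy
    have cc : ∀ d₁ ∈ D n, ∀ a₁ ∈ E, d₁ * a₁ = a₁ * d₁ := fun d₁ h₁ a₁ h₂ =>
      (Subgroup.mem_centralizer_iff.1 (hDC h₁).2 a₁ h₂).symm
    have : cm (a * d) (a' * d') = cm a a' * cm d d' := by
      have h1 := cc d hd a' ha'
      have h2 := cc (d * d' * d⁻¹) ((D n).mul_mem ((D n).mul_mem hd hd') ((D n).inv_mem hd)) _
        (E.inv_mem ha)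
      have h3 := cc (d * d' * d⁻¹ * d'⁻¹) ((D n).mul_mem ((D n).mul_mem ((D n).mul_mem hd hd')
        ((D n).inv_mem hd)) ((D n).inv_mem hd')) _ (E.inv_mem ha')
      calc cm (a * d) (a' * d') = a * (d * a') * d' * d⁻¹ * a⁻¹ * d'⁻¹ * a'⁻¹ := by simp only [cm]; group
        _ = a * a' * ((d * d' * d⁻¹) * a⁻¹) * d'⁻¹ * a'⁻¹ := by rw [h1]; group
        _ = a * a' * a⁻¹ * ((d * d' * d⁻¹ * d'⁻¹) * a'⁻¹) := by rw [h2]; group
        _ = _ := by rw [h3]; simp only [cm]; group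
    rw [this]
    exact U.mul_mem (hEc a ha a' ha') (hD1 d hd d' hd')
  have hle : E ⊔ D n ≤ E := hEmax ⟨inferInstance, le_sup_of_le_left hUE,
    sup_le hEB (hDC.trans inf_le_left), hE'⟩ le_sup_left
  refine hDU fun x hx => ?_
  refine hmax (E ⊓ Subgroup.centralizer (E : Set G)) inferInstance
    (fun a ha => ⟨hUE ha, Subgroup.mem_centralizer_iff.2 fun y hy => (hB.1 (hEB hy) a ha).symm⟩)
    (fun a ha b hb => Subgroup.mem_centralizer_iff.1 hb.2 a ha.1) ⟨hle (le_sup_right (a := E) hx), ?_⟩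
  exact (hDC hx).2

variable {G : Type u} [Group G] {V : Type u} [AddCommGroup V] [DistribMulAction G V]
  {K : Type u} [Field K] [Module K V]

namespace Layer

variable [Finite G] [Nontrivial V] [FaithfulSMul G V] (D : Layer G V K)

theorem smul_inj {k k' : K} {v : V} (hv : v ≠ 0) (h : k • v = k' • v) : k = k' := by
  by_contra hne
  refine hv ((smul_eq_zero.1 (show (k - k') • v = 0 by rw [sub_smul, h, sub_self])).resolve_left
    (sub_ne_zero.2 hne))

theorem lin {g : G} (hg : g ∈ Subgroup.centralizer (D.U : Set G)) (k : K) (v : V) :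
    g • (k • v) = k • (g • v) := by
  rw [D.S.smul_σ, D.S.σ_centralizer g hg]

theorem linE {g : G} (hg : g ∈ D.E) (k : K) (v : V) : g • (k • v) = k • (g • v) :=
  D.lin (D.E_cent g hg) k v

theorem comm_U {x u : G} (hx : x ∈ D.E) (hu : u ∈ D.U) : u * x = x * u :=
  Subgroup.mem_centralizer_iff.1 (D.E_cent x hx) u hu

theorem u_smul {g : G} (hg : g ∈ D.U) : ∃ k : K, k ≠ 0 ∧ ∀ v : V, g • v = k • v := by
  refine ⟨D.S.ι ⟨g, hg⟩, fun h => ?_, fun v => (D.S.smul_ι ⟨g, hg⟩ v).symm⟩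
  obtain ⟨v, hv⟩ := exists_ne (0 : V)
  have := D.S.smul_ι ⟨g, hg⟩ v
  rw [h, zero_smul] at this
  exact hv ((smul_eq_zero_iff_eq g).1 this.symm)

theorem u_fix {g : G} (hg : g ∈ D.U) {v : V} (hv : v ≠ 0) (h : g • v = v) : g = 1 := by
  obtain ⟨k, -, hk⟩ := D.u_smul hg
  have : k = 1 := smul_inj hv (by rw [← hk, h, one_smul])
  exact eq_of_smul_eq_smul (α := V) fun x => by rw [hk, this, one_smul, one_smul]

theorem mul_pow_eq {x y : G} (hx : x ∈ D.E) (hy : y ∈ D.E) :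
    ∀ n : ℕ, (x * y) ^ n = x ^ n * y ^ n * cm y x ^ (n.choose 2) := by
  have hc := D.E_comm y hy x hx
  have hyx : y * x = x * y * cm y x := by
    rw [cm_mul_eq y x, D.comm_U (D.E.mul_mem hx hy) hc]
  have hpow : ∀ n : ℕ, y ^ n * x = x * y ^ n * cm y x ^ n := by
    intro n
    induction n with
    | zero => simp
    | succ n ih =>
      have h1 : cm y x * y ^ n = y ^ n * cm y x := D.comm_U (D.E.pow_mem hy n) hc
      calc y ^ (n + 1) * x = y * (y ^ n * x) := by rw [pow_succ']; group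
        _ = (y * x) * y ^ n * cm y x ^ n := by rw [ih]; group
        _ = x * y * (cm y x * y ^ n) * cm y x ^ n := by rw [hyx]; group
        _ = _ := by rw [h1, pow_succ' y, pow_succ' (cm y x)]; group
  intro n
  induction n with
  | zero => simp
  | succ n ih =>
    have h1 : cm y x ^ n.choose 2 * (x * y) = (x * y) * cm y x ^ n.choose 2 :=
      D.comm_U (D.E.mul_mem hx hy) (D.U.pow_mem hc _)
    have h2 : cm y x ^ n * y = y * cm y x ^ n := D.comm_U hy (D.U.pow_mem hc _)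
    calc (x * y) ^ (n + 1) = x ^ n * y ^ n * (cm y x ^ n.choose 2 * (x * y)) := by
          rw [pow_succ, ih]; group
      _ = x ^ n * (y ^ n * x) * y * cm y x ^ n.choose 2 := by rw [h1]; group
      _ = x ^ n * x * y ^ n * (cm y x ^ n * y) * cm y x ^ n.choose 2 := by rw [hpow]; group
      _ = _ := by
        rw [h2, Nat.choose_succ_succ n 1, Nat.choose_one_right, pow_add, pow_succ x, pow_succ y]
        group

theorem cm_mul_right {x y z : G} (hx : x ∈ D.E) (hy : y ∈ D.E) (hz : z ∈ D.E) :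
    cm x (y * z) = cm x y * cm x z := by
  have h := D.comm_U hy (D.E_comm x hx z hz)
  calc cm x (y * z) = x * y * x⁻¹ * (x * z * x⁻¹ * z⁻¹) * y⁻¹ := by simp only [cm]; group
    _ = x * y * x⁻¹ * (cm x z * y⁻¹) := by simp only [cm]; group
    _ = x * y * x⁻¹ * (y⁻¹ * cm x z) := by rw [D.comm_U (D.E.inv_mem hy) (D.E_comm x hx z hz)]
    _ = _ := by simp only [cm]; group

theorem cm_mul_left {x y z : G} (hx : x ∈ D.E) (hy : y ∈ D.E) (hz : z ∈ D.E) :
    cm (x * y) z = cm x z * cm y z := by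
  have h := D.comm_U hx (D.E_comm y hy z hz)
  calc cm (x * y) z = x * cm y z * z * x⁻¹ * z⁻¹ := by simp only [cm]; group
    _ = cm y z * x * z * x⁻¹ * z⁻¹ := by rw [h]
    _ = cm y z * cm x z := by simp only [cm]; group
    _ = _ := D.U_comm _ (D.E_comm y hy z hz) _ (D.E_comm x hx z hz)

theorem cm_pow_right {x y : G} (hx : x ∈ D.E) (hy : y ∈ D.E) (n : ℕ) :
    cm x (y ^ n) = cm x y ^ n := by
  induction n with
  | zero => simp [cm]
  | succ n ih => rw [pow_succ, D.cm_mul_right hx (D.E.pow_mem hy n) hy, ih, pow_succ]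

theorem cm_pow_left {x y : G} (hx : x ∈ D.E) (hy : y ∈ D.E) (n : ℕ) :
    cm (x ^ n) y = cm x y ^ n := by
  induction n with
  | zero => simp [cm]
  | succ n ih => rw [pow_succ, D.cm_mul_left (D.E.pow_mem hx n) hx hy, ih, pow_succ]

theorem cm_U {x u : G} (hx : x ∈ D.E) (hu : u ∈ D.U) : cm x u = 1 :=
  cm_eq_one.2 (D.comm_U hx hu).symm

/-- Abelian normal subgroups inside the layer. -/
theorem center_le {N : Subgroup G} (hN : N.Normal) (hUN : D.U ≤ N) (hNE : N ≤ D.E) {x : G}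
    (hx : x ∈ N) (hxN : ∀ y ∈ N, x * y = y * x) : x ∈ D.U := by
  haveI := hN
  exact D.U_max (N ⊓ Subgroup.centralizer (N : Set G)) inferInstance
    (fun a ha => ⟨hUN ha, Subgroup.mem_centralizer_iff.2 fun y hy => (D.comm_U (hNE hy) ha).symm⟩)
    (fun a ha b hb => Subgroup.mem_centralizer_iff.1 hb.2 a ha.1)
    ⟨hx, Subgroup.mem_centralizer_iff.2 fun y hy => (hxN y hy).symm⟩

/-- The quotient has square-free exponent. -/
theorem pow_mem_of_sq {x : G} (hx : x ∈ D.E) {r : ℕ} (h : x ^ (r * r) ∈ D.U) : x ^ r ∈ D.U := by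
  let Ps : Set G := (D.U : Set G) ∪ {a | ∃ z ∈ D.E, z ^ (r * r) ∈ D.U ∧ z ^ r = a}
  let N : Subgroup G := Subgroup.closure Ps
  have hPE : ∀ a ∈ Ps, a ∈ D.E := by
    rintro a (ha | ⟨z, hz, -, rfl⟩)
    · exact D.U_le ha
    · exact D.E.pow_mem hz r
  have hcomm : ∀ a ∈ Ps, ∀ b ∈ Ps, a * b = b * a := by
    rintro a ha b (hb | ⟨w, hw, hw2, rfl⟩)
    · exact (D.comm_U (hPE a ha) hb).symm
    rcases ha with ha | ⟨z, hz, -, rfl⟩
    · exact D.comm_U (D.E.pow_mem hw r) ha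
    · refine cm_eq_one.1 ?_
      rw [D.cm_pow_left hz (D.E.pow_mem hw r), ← D.cm_pow_right hz (D.E.pow_mem hw r), ← pow_mul,
        D.cm_U hz hw2]
  have hN : N.Normal := by
    refine ⟨fun a ha g => ?_⟩
    induction ha using Subgroup.closure_induction with
    | mem a ha =>
      refine Subgroup.subset_closure ?_
      rcases ha with ha | ⟨z, hz, hz2, rfl⟩
      · exact Or.inl (D.U_normal.conj_mem a ha g)
      · refine Or.inr ⟨g * z * g⁻¹, D.E_normal.conj_mem z hz g, ?_, conj_pow⟩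
        rw [conj_pow]; exact D.U_normal.conj_mem _ hz2 g
    | one => rw [mul_one, mul_inv_cancel]; exact one_mem _
    | mul a b _ _ iha ihb =>
      rw [show g * (a * b) * g⁻¹ = (g * a * g⁻¹) * (g * b * g⁻¹) by group]
      exact mul_mem iha ihb
    | inv a _ iha => rw [show g * a⁻¹ * g⁻¹ = (g * a * g⁻¹)⁻¹ by group]; exact inv_mem iha
  have hab : ∀ a ∈ N, ∀ b ∈ N, a * b = b * a := by
    intro a ha b hb
    have h1 : N ≤ Subgroup.centralizer Ps :=
      (Subgroup.closure_le _).2 fun y hy => Subgroup.mem_centralizer_iff.2 fun z hz => hcomm z hz y hy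
    have h2 : N ≤ Subgroup.centralizer (N : Set G) := (Subgroup.closure_le _).2 fun y hy =>
      Subgroup.mem_centralizer_iff.2 fun z hz => (Subgroup.mem_centralizer_iff.1 (h1 hz) y hy).symm
    exact Subgroup.mem_centralizer_iff.1 (h2 hb) a ha
  exact D.U_max N hN (fun u hu => Subgroup.subset_closure (Or.inl hu)) hab
    (Subgroup.subset_closure (Or.inr ⟨x, hx, h, rfl⟩))

theorem pow_mem_of_pow {x : G} (hx : x ∈ D.E) {r a : ℕ} (h : x ^ r ^ a ∈ D.U) : x ^ r ∈ D.U := by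
  induction a with
  | zero => rw [pow_zero, pow_one] at h; exact D.U.pow_mem h r
  | succ a ih =>
    cases a with
    | zero => simpa using h
    | succ a =>
      refine ih ?_
      have := D.pow_mem_of_sq (D.E.pow_mem hx (r ^ a)) (r := r) (by
        rw [← pow_mul]; simpa [pow_succ, mul_assoc] using h)
      rwa [← pow_mul, ← pow_succ] at this

variable [Finite K]

/-- Powers of odd prime exponent are powers of scalars. -/
theorem odd_power {x : G} (hx : x ∈ D.E) {r : ℕ} (hr : r.Prime) (hr2 : r ≠ 2) (hxr : x ^ r ∈ D.U) :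
    ∃ k : K, k ≠ 0 ∧ ∀ v : V, x ^ r • v = k ^ r • v := by
  classical
  haveI := Fact.mk hr
  haveI := D.U_normal
  by_contra hno
  obtain ⟨v₀, hv₀⟩ := exists_ne (0 : V)
  have hchoose : r ∣ r.choose 2 :=
    hr.dvd_choose_self (by norm_num) (lt_of_le_of_ne hr.two_le (Ne.symm hr2))
  have hmulpow : ∀ a ∈ D.E, ∀ b ∈ D.E, a ^ r ∈ D.U → (a * b) ^ r = a ^ r * b ^ r := by
    intro a ha b hb har
    rw [D.mul_pow_eq ha hb]
    obtain ⟨m, hm⟩ := hchoose
    rw [hm, pow_mul, ← D.cm_pow_right hb ha, D.cm_U hb har, one_pow, mul_one]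
  let Er : Subgroup G :=
    { carrier := {a | a ∈ D.E ∧ a ^ r ∈ D.U}
      one_mem' := ⟨D.E.one_mem, by rw [one_pow]; exact D.U.one_mem⟩
      mul_mem' := fun {a b} ha hb => ⟨D.E.mul_mem ha.1 hb.1, by
        rw [hmulpow a ha.1 b hb.1 ha.2]; exact D.U.mul_mem ha.2 hb.2⟩
      inv_mem' := fun {a} ha => ⟨D.E.inv_mem ha.1, by rw [inv_pow]; exact D.U.inv_mem ha.2⟩ }
  let P : G → Prop := fun a => ∃ k : K, k ≠ 0 ∧ ∀ v : V, a ^ r • v = k ^ r • v
  let T : Subgroup G :=
    { carrier := {a | a ∈ Er ∧ P a}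
      one_mem' := ⟨Er.one_mem, 1, one_ne_zero, fun v => by
        rw [one_pow, one_pow, one_smul, one_smul]⟩
      mul_mem' := by
        rintro a b ⟨ha, k, hk0, hk⟩ ⟨hb, l, hl0, hl⟩
        refine ⟨Er.mul_mem ha hb, k * l, mul_ne_zero hk0 hl0, fun v => ?_⟩
        rw [hmulpow a ha.1 b hb.1 ha.2, mul_smul, hl, D.linE (D.E.pow_mem ha.1 r), hk, smul_smul,
          ← mul_pow, mul_comm l k]
      inv_mem' := by
        rintro a ⟨ha, k, hk0, hk⟩
        refine ⟨Er.inv_mem ha, k⁻¹, inv_ne_zero hk0, fun v => ?_⟩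
        rw [inv_pow, inv_smul_eq_iff, hk, smul_smul, ← mul_pow, mul_inv_cancel₀ hk0, one_pow, one_smul] }
  have hTEr : T ≤ Er := fun a ha => ha.1
  have hUT : D.U ≤ T := fun u hu => by
    obtain ⟨k, hk0, hk⟩ := D.u_smul hu
    refine ⟨⟨D.U_le hu, D.U.pow_mem hu r⟩, k, hk0, ?_⟩
    intro v
    have : ∀ n : ℕ, u ^ n • v = k ^ n • v := by
      intro n
      induction n with
      | zero => rw [pow_zero, pow_zero, one_smul, one_smul]
      | succ n ih => rw [pow_succ', mul_smul, ih, hk, smul_smul, pow_succ']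
    exact this r
  have hxT : x ∉ T := fun h => hno h.2
  have hErn : Er.Normal := ⟨fun a ha g => ⟨D.E_normal.conj_mem a ha.1 g, by
    rw [conj_pow]; exact D.U_normal.conj_mem _ ha.2 g⟩⟩
  have hTn : T.Normal := by
    refine ⟨fun a ha g => ⟨hErn.conj_mem a ha.1 g, ?_⟩⟩
    obtain ⟨-, k, hk0, hk⟩ := ha
    refine ⟨D.S.σ g k, (map_ne_zero _).2 hk0, fun v => ?_⟩
    rw [conj_pow, mul_smul, mul_smul, hk, D.S.smul_σ, smul_inv_smul, map_pow]
  -- some element of `Er` outside `U` centralises `T`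
  obtain ⟨y, hy, hyU, hyT⟩ : ∃ y ∈ Er, y ∉ D.U ∧ ∀ t ∈ T, y * t = t * y := by
    by_contra hno'
    push Not at hno'
    let UT : Subgroup T := D.U.subgroupOf T
    let χ : Er → T → Kˣ := fun a t => Units.mk0 (Classical.choose (D.u_smul (D.E_comm a a.2.1 t t.2.1.1)))
      (Classical.choose_spec (D.u_smul (D.E_comm a a.2.1 t t.2.1.1))).1
    have hχ : ∀ (a : Er) (t : T) (v : V), cm (a : G) t • v = ((χ a t : Kˣ) : K) • v := fun a t =>
      (Classical.choose_spec (D.u_smul (D.E_comm a a.2.1 t t.2.1.1))).2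
    have hχ1 : ∀ (a : Er) (t : T), χ a t = 1 → cm (a : G) t = 1 := fun a t h =>
      eq_of_smul_eq_smul (α := V) fun v => by rw [hχ, h, one_smul]; exact one_smul K v
    let χh : Er → (T →* Kˣ) := fun a => MonoidHom.mk' (χ a) fun s t => Units.ext (smul_inj hv₀ (by
      rw [← hχ, Units.val_mul, mul_smul, ← hχ a t, ← hχ a s, ← mul_smul, Subgroup.coe_mul,
        D.cm_mul_right a.2.1 s.2.1.1 t.2.1.1]))
    let χq : Er → (T ⧸ UT →* Kˣ) := fun a => QuotientGroup.lift UT (χh a) fun t ht =>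
      MonoidHom.mem_ker.2 (Units.ext (smul_inj hv₀ (by
        show ((χ a t : Kˣ) : K) • v₀ = _
        rw [← hχ, D.cm_U a.2.1 (Subgroup.mem_subgroupOf.1 ht), one_smul, Units.val_one]
        exact (one_smul K v₀).symm)))
    let χf : Er →* (T ⧸ UT →* Kˣ) := MonoidHom.mk' χq fun a b => MonoidHom.ext fun z => by
      induction z using QuotientGroup.induction_on with
      | _ t =>
        refine Units.ext (smul_inj hv₀ ?_)
        show ((χ (a * b) t : Kˣ) : K) • v₀ = ((χ a t * χ b t : Kˣ) : K) • v₀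
        rw [← hχ, Units.val_mul, mul_smul, ← hχ b t, ← hχ a t, ← mul_smul, Subgroup.coe_mul,
          D.cm_mul_left a.2.1 b.2.1 t.2.1.1]
    have hker : χf.ker ≤ D.U.subgroupOf Er := by
      intro a ha
      rw [Subgroup.mem_subgroupOf]
      by_contra haU
      obtain ⟨t, ht, hne⟩ := hno' a a.2 haU
      exact hne (cm_eq_one.1 (hχ1 a ⟨t, ht⟩ (DFunLike.congr_fun (MonoidHom.mem_ker.1 ha)
        (QuotientGroup.mk (⟨t, ht⟩ : T)))))
    haveI := Fintype.ofFinite (T ⧸ UT)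
    have hli : LinearIndependent K (fun f : T ⧸ UT →* Kˣ => fun w => ((f w : Kˣ) : K)) :=
      (linearIndependent_monoidHom (T ⧸ UT) K).comp
        (fun f : T ⧸ UT →* Kˣ => (Units.coeHom K).comp f)
        fun f g h => MonoidHom.ext fun w => Units.ext (DFunLike.congr_fun h w)
    haveI : Finite (T ⧸ UT →* Kˣ) := hli.finite
    haveI := Fintype.ofFinite (T ⧸ UT →* Kˣ)
    have h1 : χf.ker.index ≤ D.U.relIndex T := by
      rw [Subgroup.index_ker]
      refine (Finite.card_subtype_le _).trans ?_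
      show Nat.card (T ⧸ UT →* Kˣ) ≤ Nat.card (T ⧸ UT)
      rw [Nat.card_eq_fintype_card, Nat.card_eq_fintype_card]
      exact hli.fintype_card_le_finrank.trans_eq (Module.finrank_fintype_fun_eq_card K)
    have h2 : D.U.relIndex Er ≤ χf.ker.index :=
      Nat.le_of_dvd (Nat.pos_of_ne_zero Subgroup.index_ne_zero_of_finite) (Subgroup.index_dvd_of_le hker)
    have h3 : D.U.relIndex T * T.relIndex Er = D.U.relIndex Er :=
      Subgroup.relIndex_mul_relIndex _ _ _ hUT hTEr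
    have h4 : T.relIndex Er ≠ 1 := fun h => hxT (Subgroup.relIndex_eq_one.1 h ⟨hx, hxr⟩)
    have h5 : T.relIndex Er ≠ 0 := Subgroup.index_ne_zero_of_finite
    have h6 : 0 < D.U.relIndex T := Nat.pos_of_ne_zero Subgroup.index_ne_zero_of_finite
    nlinarith [show 2 ≤ T.relIndex Er by omega]
  -- it generates `Er` over `T`
  obtain ⟨g₀, hg₀⟩ := IsCyclic.exists_generator (α := Kˣ)
  have hlog : ∀ a ∈ Er, ∃ i : ℤ, ∀ v : V, a ^ r • v = ((g₀ ^ i : Kˣ) : K) • v := by
    intro a ha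
    obtain ⟨k, hk0, hk⟩ := D.u_smul ha.2
    obtain ⟨i, hi⟩ := hg₀ (Units.mk0 k hk0)
    exact ⟨i, fun v => by rw [hk, show g₀ ^ i = Units.mk0 k hk0 from hi]; rfl⟩
  obtain ⟨a, ha⟩ := hlog y hy
  have hra : ¬ (r : ℤ) ∣ a := by
    rintro ⟨m, rfl⟩
    refine hyU (D.center_le hTn hUT (hTEr.trans fun z hz => hz.1) ⟨hy, ((g₀ ^ m : Kˣ) : K),
      Units.ne_zero _, fun v => ?_⟩ hyT)
    rw [ha, ← Units.val_pow_eq_pow_val, ← zpow_natCast, ← zpow_mul, mul_comm]
  obtain ⟨s, t, hst⟩ := (((Nat.prime_iff_prime_int.1 hr).coprime_iff_not_dvd).2 hra)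
  refine hyU (D.center_le hErn (hUT.trans hTEr) (fun z hz => hz.1) hy fun z hz => ?_)
  obtain ⟨b, hb⟩ := hlog z hz
  -- a power of `y` brings `z` into `T`
  have hn : ∃ n : ℕ, z * y ^ n ∈ T := by
    obtain ⟨n, hn⟩ : ∃ n : ℕ, (r : ℤ) ∣ b + n * a := by
      refine ⟨((-b * t) % r).toNat, ?_⟩
      rw [Int.toNat_of_nonneg (Int.emod_nonneg _ (by exact_mod_cast hr.ne_zero)), Int.emod_def]
      exact ⟨b * s - (-b * t / r) * a, by linear_combination -b * hst⟩
    obtain ⟨m, hm⟩ := hn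
    refine ⟨n, Er.mul_mem hz (Er.pow_mem hy n), ((g₀ ^ m : Kˣ) : K), Units.ne_zero _, fun v => ?_⟩
    have hyn : ∀ n : ℕ, (y ^ n) ^ r • v = ((g₀ ^ ((n : ℤ) * a) : Kˣ) : K) • v := by
      intro n
      induction n with
      | zero => simp
      | succ n ih =>
        rw [← pow_mul, Nat.succ_mul, pow_add, mul_smul, ha, D.linE (D.E.pow_mem hy.1 _), pow_mul, ih,
          smul_smul, ← Units.val_mul, ← zpow_add]
        congr 3
        push_cast; ring
    rw [hmulpow z hz.1 _ (D.E.pow_mem hy.1 n) hz.2, mul_smul, hyn, D.linE (D.E.pow_mem hz.1 r), hb,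
      smul_smul, ← Units.val_mul, ← zpow_add, ← Units.val_pow_eq_pow_val, ← zpow_natCast, ← zpow_mul]
    congr 3
    linarith [hm]
  obtain ⟨n, hn⟩ := hn
  have h1 := hyT _ hn
  have h2 : y * z * y ^ n = z * y * y ^ n := by
    calc y * z * y ^ n = y * (z * y ^ n) := mul_assoc ..
      _ = z * y ^ n * y := h1
      _ = z * y * y ^ n := by rw [mul_assoc, ← pow_succ, pow_succ', ← mul_assoc]
  exact mul_right_cancel h2

end Layer

end Cfsg.Agent.H67.Base3
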