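import Cfsg.Agent.H67.Base3.Colour

/-! Reductions for the existence of regular triples of vectors: reducible and imprimitive modules. -/

set_option autoImplicit false
set_option linter.unusedSectionVars false
set_option linter.style.haveILetI false
set_option linter.unusedSimpArgs false

namespace Cfsg.Agent.H67.Base3

open MulAction
open Cfsg.Agent.H52.RegPair (Inv CR Irr Indep Imprim subAction cr_sub)
open scoped Pointwise commutatorElement

universe u

/-- An elementary transvection of a product of three copies of a group. -/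
def elemT (p : ℕ) (i j : Fin 3) (h : i ≠ j) : AddAut (Fin 3 → ZMod p) where
  toFun v := v + Pi.single i (v j)
  invFun v := v - Pi.single i (v j)
  left_inv v := by
    show (v + Pi.single i (v j)) - Pi.single i ((v + Pi.single i (v j) : Fin 3 → ZMod p) j) = v
    rw [Pi.add_apply, Pi.single_eq_of_ne (Ne.symm h), add_zero, add_sub_cancel_right]
  right_inv v := by
    show (v - Pi.single i (v j)) + Pi.single i ((v - Pi.single i (v j) : Fin 3 → ZMod p) j) = v
    rw [Pi.sub_apply, Pi.single_eq_of_ne (Ne.symm h), sub_zero, sub_add_cancel]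
  map_add' v w := by rw [Pi.add_apply, Pi.single_add]; abel

theorem elemT_apply (p : ℕ) (i j : Fin 3) (h : i ≠ j) (v : Fin 3 → ZMod p) :
    elemT p i j h v = v + Pi.single i (v j) := rfl

theorem elemT_inv_apply (p : ℕ) (i j : Fin 3) (h : i ≠ j) (v : Fin 3 → ZMod p) :
    (-elemT p i j h : AddAut (Fin 3 → ZMod p)) v = v - Pi.single i (v j) := rfl

/-- The automorphism group of a product of three cyclic groups of prime order is not soluble. -/
theorem not_solvable_addAut (p : ℕ) [Fact p.Prime] :
    ¬ Group.IsSolvable (Multiplicative (AddAut (Fin 3 → ZMod p))) := by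
  intro hs
  let T : ∀ i j : Fin 3, i ≠ j → Multiplicative (AddAut (Fin 3 → ZMod p)) := fun i j h =>
    Multiplicative.ofAdd (elemT p i j h)
  have hcom : ∀ (i j k : Fin 3) (hij : i ≠ j) (hjk : j ≠ k) (hik : i ≠ k),
      ⁅T i j hij, T j k hjk⁆ = T i k hik := by
    intro i j k hij hjk hik
    refine Multiplicative.toAdd.injective (AddEquiv.ext fun v => ?_)
    show elemT p i j hij (elemT p j k hjk ((-elemT p i j hij : AddAut _)
      ((-elemT p j k hjk : AddAut _) v))) = elemT p i k hik v
    simp only [elemT_apply, elemT_inv_apply]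
    ext l
    have hji := Ne.symm hij
    have hkj := Ne.symm hjk
    have hki := Ne.symm hik
    simp only [Pi.add_apply, Pi.sub_apply, Pi.single_eq_same, Pi.single_eq_of_ne hji,
      Pi.single_eq_of_ne hij, Pi.single_eq_of_ne hkj, Pi.single_eq_of_ne hjk,
      Pi.single_eq_of_ne hki, Pi.single_eq_of_ne hik]
    by_cases hl : l = i
    · subst hl; simp [Pi.single_eq_of_ne hij]; ring
    · simp only [Pi.single_eq_of_ne hl]; ring
  obtain ⟨n, hn⟩ := hs.solvable
  have key : ∀ m i j (h : i ≠ j), T i j h ∈ derivedSeries (Multiplicative (AddAut (Fin 3 → ZMod p))) m := by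
    intro m
    induction m with
    | zero => exact fun i j h => Subgroup.mem_top _
    | succ m ih =>
      intro i j h
      obtain ⟨k, hki, hkj⟩ : ∃ k : Fin 3, k ≠ i ∧ k ≠ j :=
        (by decide : ∀ i j : Fin 3, ∃ k, k ≠ i ∧ k ≠ j) i j
      rw [derivedSeries_succ, ← hcom i k j (Ne.symm hki) hkj h]
      exact Subgroup.commutator_mem_commutator (ih _ _ _) (ih _ _ _)
  have h0 := key n 0 1 (by decide)
  rw [hn, Subgroup.mem_bot] at h0
  have h1 : elemT p 0 1 (by decide) (Pi.single 1 1) = (Pi.single 1 1 : Fin 3 → ZMod p) :=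
    congrArg (fun f : Multiplicative (AddAut (Fin 3 → ZMod p)) => (Multiplicative.toAdd f) (Pi.single 1 1)) h0
  have h2 := congrFun h1 0
  simp [elemT_apply] at h2

variable {H : Type u} [Group H] [Finite H] {X : Type u} [AddCommGroup X] [DistribMulAction H X]
  [Finite X] [Nontrivial X]

/-- An irreducible module has prime exponent. -/
theorem exists_exponent (hirr : Irr H X) : ∃ p : ℕ, p.Prime ∧ ∀ x : X, p • x = 0 := by
  have h1 : 1 < Nat.card X := Finite.one_lt_card
  obtain ⟨p, hp, hpd⟩ := Nat.exists_prime_and_dvd h1.ne'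
  haveI := Fact.mk hp
  obtain ⟨a, ha⟩ := exists_prime_addOrderOf_dvd_card' p hpd
  refine ⟨p, hp, fun x => ?_⟩
  let U : AddSubgroup X :=
    { carrier := {z | p • z = 0}
      zero_mem' := smul_zero p
      add_mem' := fun {z w} hz hw => by
        show p • (z + w) = 0
        rw [smul_add, show p • z = 0 from hz, show p • w = 0 from hw, add_zero]
      neg_mem' := fun {z} hz => by
        show p • (-z) = 0
        rw [smul_neg, show p • z = 0 from hz, neg_zero] }
  rcases hirr U (fun g z hz => by
    show p • (g • z) = 0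
    rw [smul_comm, show p • z = 0 from hz, smul_zero]) with h | h
  · have : a ∈ U := by
      show p • a = 0
      rw [← ha, addOrderOf_nsmul_eq_zero]
    rw [h, AddSubgroup.mem_bot] at this
    rw [this, addOrderOf_zero] at ha
    exact absurd ha.symm hp.ne_one
  · exact (h ▸ AddSubgroup.mem_top x : x ∈ U)

/-- Five regular triples in different orbits. -/
theorem five_triples (hs : Group.IsSolvable H) (hirr : Irr H X)
    (h : ∃ a b c : X, RegTriple H X a b c) :
    ∃ F : Fin 5 → X × X × X, (∀ i, RegTriple H X (F i).1 (F i).2.1 (F i).2.2) ∧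
      ∀ i j, (∃ g : H, g • F i = F j) → i = j := by
  classical
  haveI := hs
  haveI := Fintype.ofFinite X
  have fin : ∀ T : Finset (X × X × X), 5 ≤ T.card →
      (∀ t ∈ T, RegTriple H X t.1 t.2.1 t.2.2) →
      (∀ t ∈ T, ∀ t' ∈ T, (∃ g : H, g • t = t') → t = t') →
      ∃ F : Fin 5 → X × X × X, (∀ i, RegTriple H X (F i).1 (F i).2.1 (F i).2.2) ∧
        ∀ i j, (∃ g : H, g • F i = F j) → i = j := by
    intro T hT hreg hne
    obtain ⟨e⟩ := Function.Embedding.nonempty_of_card_le (α := Fin 5) (β := T) (by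
      rw [Fintype.card_fin, Fintype.card_coe]; exact hT)
    exact ⟨fun i => (e i : X × X × X), fun i => hreg _ (e i).2,
      fun i j hij => e.injective (Subtype.ext (hne _ (e i).2 _ (e j).2 hij))⟩
  by_cases hone : ∃ a : X, RegTriple H X a a a
  · obtain ⟨a, ha⟩ := hone
    by_cases ha0 : a = 0
    · -- trivial action
      have htriv : ∀ (g : H) (x : X), g • x = x := fun g x =>
        ha g (by rw [ha0, smul_zero]) (by rw [ha0, smul_zero]) (by rw [ha0, smul_zero]) x
      refine fin Finset.univ ?_ (fun t _ g _ _ _ => htriv g) fun t _ t' _ ⟨g, hg⟩ => ?_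
      · rw [Finset.card_univ, Fintype.card_prod, Fintype.card_prod]
        have := Fintype.one_lt_card (α := X)
        nlinarith [Nat.mul_le_mul this (Nat.mul_le_mul this this)]
      · rw [← hg]
        refine Prod.ext ?_ (Prod.ext ?_ ?_) <;> simp [htriv]
    let T : Finset (X × X × X) := insert ((0 : X), a, (0 : X))
      ((Finset.univ : Finset (X × X)).image fun p => (a, p.1, p.2))
    refine fin T ?_ ?_ ?_
    · rw [Finset.card_insert_of_notMem, Finset.card_image_of_injective, Finset.card_univ,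
        Fintype.card_prod]
      · have := Fintype.one_lt_card (α := X); nlinarith
      · intro p q hpq
        simp only [Prod.mk.injEq, true_and] at hpq
        exact Prod.ext hpq.1 hpq.2
      · simp [ha0]
    · intro t ht g h1 h2 h3
      rcases Finset.mem_insert.1 ht with rfl | ht
      · exact ha g h2 h2 h2
      · obtain ⟨p, -, rfl⟩ := Finset.mem_image.1 ht
        exact ha g h1 h1 h1
    · rintro t ht t' ht' ⟨g, hg⟩
      rcases Finset.mem_insert.1 ht with rfl | ht <;> rcases Finset.mem_insert.1 ht' with rfl | ht'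
      · rfl
      · obtain ⟨p, -, rfl⟩ := Finset.mem_image.1 ht'
        have e := congrArg Prod.fst hg
        simp only [Prod.smul_fst, smul_zero] at e
        exact absurd e.symm ha0
      · obtain ⟨p, -, rfl⟩ := Finset.mem_image.1 ht
        have e := congrArg Prod.fst hg
        simp only [Prod.smul_fst] at e
        exact absurd ((smul_eq_zero_iff_eq g).1 e) ha0
      · obtain ⟨p, -, rfl⟩ := Finset.mem_image.1 ht
        obtain ⟨q, -, rfl⟩ := Finset.mem_image.1 ht'
        have e := congrArg Prod.fst hg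
        simp only [Prod.smul_fst] at e
        have hall := ha g e e e
        rw [← hg]
        refine Prod.ext ?_ (Prod.ext ?_ ?_) <;> simp [hall]
  obtain ⟨p, hp, hexp⟩ := exists_exponent hirr
  haveI := Fact.mk hp
  obtain ⟨mX⟩ : Nonempty (Module (ZMod p) X) := ⟨AddCommGroup.zmodModule hexp⟩
  letI := mX
  by_cases htwo : ∃ a b : X, RegTriple H X a b b
  · obtain ⟨a, b, hab⟩ := htwo
    have ha0 : a ≠ 0 := fun e => hone ⟨b, fun g h1 _ _ => hab g (by rw [e, smul_zero]) h1 h1⟩
    have hb0 : b ≠ 0 := fun e => hone ⟨a, fun g h1 _ _ => hab g h1 (by rw [e, smul_zero])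
      (by rw [e, smul_zero])⟩
    have h4 : 4 ≤ Fintype.card X := by
      let f : ZMod p × ZMod p → X := fun c => c.1 • a + c.2 • b
      have hf : Function.Injective f := by
        intro c c' hcc
        have h0 : (c.1 - c'.1) • a + (c.2 - c'.2) • b = 0 := by
          calc (c.1 - c'.1) • a + (c.2 - c'.2) • b = f c - f c' := by simp only [f]; module
            _ = 0 := sub_eq_zero.2 hcc
        by_cases h1 : c.1 - c'.1 = 0
        · rw [h1, zero_smul, zero_add] at h0
          exact Prod.ext (sub_eq_zero.1 h1) (sub_eq_zero.1 (((smul_eq_zero (R := ZMod p) (M := X)).1 h0).resolve_right hb0))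
        · exfalso
          have e : a = (-(c.1 - c'.1)⁻¹ * (c.2 - c'.2)) • b := by
            calc a = (c.1 - c'.1)⁻¹ • ((c.1 - c'.1) • a) := (inv_smul_smul₀ h1 a).symm
              _ = (c.1 - c'.1)⁻¹ • (-((c.2 - c'.2) • b)) := by rw [eq_neg_of_add_eq_zero_left h0]
              _ = _ := by rw [smul_neg, smul_smul, neg_mul, neg_smul]
          refine hone ⟨b, fun g h1 _ _ => hab g ?_ h1 h1⟩
          rw [e]
          exact (ZMod.map_smul (DistribSMul.toAddMonoidHom X g) _ b).trans (by
            simp only [DistribSMul.toAddMonoidHom_apply, h1])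
      have hc := Fintype.card_le_of_injective f hf
      rw [Fintype.card_prod, ZMod.card] at hc
      exact le_trans (Nat.mul_le_mul hp.two_le hp.two_le) hc
    let T : Finset (X × X × X) := insert (a, (0 : X), b) (Finset.univ.image fun x => (a, b, x))
    refine fin T ?_ ?_ ?_
    · rw [Finset.card_insert_of_notMem, Finset.card_image_of_injective, Finset.card_univ]
      · omega
      · intro x y hxy; simpa using hxy
      · simp [hb0]
    · intro t ht g h1 h2 h3
      rcases Finset.mem_insert.1 ht with rfl | ht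
      · exact hab g h1 h3 h3
      · obtain ⟨x, -, rfl⟩ := Finset.mem_image.1 ht
        exact hab g h1 h2 h2
    · rintro t ht t' ht' ⟨g, hg⟩
      rcases Finset.mem_insert.1 ht with rfl | ht <;> rcases Finset.mem_insert.1 ht' with rfl | ht'
      · rfl
      · obtain ⟨x, -, rfl⟩ := Finset.mem_image.1 ht'
        have e := congrArg (fun t : X × X × X => t.2.1) hg
        simp only [Prod.smul_fst, Prod.smul_snd, smul_zero] at e
        exact absurd e.symm hb0
      · obtain ⟨x, -, rfl⟩ := Finset.mem_image.1 ht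
        have e := congrArg (fun t : X × X × X => t.2.1) hg
        simp only [Prod.smul_fst, Prod.smul_snd] at e
        exact absurd ((smul_eq_zero_iff_eq g).1 e) hb0
      · obtain ⟨x, -, rfl⟩ := Finset.mem_image.1 ht
        obtain ⟨y, -, rfl⟩ := Finset.mem_image.1 ht'
        have e1 := congrArg Prod.fst hg
        have e2 := congrArg (fun t : X × X × X => t.2.1) hg
        simp only [Prod.smul_fst, Prod.smul_snd] at e1 e2
        have hall := hab g e1 e2 e2
        rw [← hg]
        refine Prod.ext ?_ (Prod.ext ?_ ?_) <;> simp [hall]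
  -- three independent vectors
  obtain ⟨a, b, c, habc⟩ := h
  let φ : (Fin 3 → ZMod p) →ₗ[ZMod p] X :=
    Fintype.linearCombination (ZMod p) ![a, b, c]
  have hsm : ∀ (g : H) (k : ZMod p) (x : X), g • (k • x) = k • (g • x) := fun g k x =>
    ZMod.map_smul (DistribSMul.toAddMonoidHom X g) k x
  have hφv : ∀ v : Fin 3 → ZMod p, φ v = v 0 • a + v 1 • b + v 2 • c := fun v => by
    simp [φ, Fintype.linearCombination_apply, Fin.sum_univ_three]
  have hinj : Function.Injective φ := by
    have dep : ∀ (x y z : X) (k l : ZMod p), RegTriple H X x y z → z = k • x + l • y → False := by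
      intro x y z k l hr he
      refine htwo ⟨x, y, fun g h1 h2 _ => hr g h1 h2 ?_⟩
      rw [he, smul_add, hsm, hsm, h1, h2]
    rw [injective_iff_map_eq_zero]
    intro v hv
    rw [hφv] at hv
    have case : ∀ (x y z : X) (k l m : ZMod p), RegTriple H X x y z →
        k • x + l • y + m • z = 0 → m = 0 := by
      intro x y z k l m hr he
      by_contra hm
      refine dep x y z (-m⁻¹ * k) (-m⁻¹ * l) hr ?_
      calc z = m⁻¹ • (m • z) := (inv_smul_smul₀ hm z).symm
        _ = m⁻¹ • (-(k • x + l • y)) := by rw [eq_neg_of_add_eq_zero_right he]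
        _ = _ := by module
    have h2 := case a b c _ _ _ habc hv
    have h1 := case a c b (v 0) (v 2) (v 1) (fun g q1 q2 q3 => habc g q1 q3 q2) (by rw [← hv]; abel)
    have h0 := case b c a (v 1) (v 2) (v 0) (fun g q1 q2 q3 => habc g q3 q1 q2) (by rw [← hv]; abel)
    funext i
    fin_cases i <;> assumption
  let L := Multiplicative (AddAut (Fin 3 → ZMod p))
  let app : L → (Fin 3 → ZMod p) → Fin 3 → ZMod p := fun f v => Multiplicative.toAdd f v
  let M : Subgroup L :=
    { carrier := {f | ∃ g : H, ∀ v, g • φ v = φ (app f v)}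
      one_mem' := ⟨1, fun v => by rw [one_smul]; rfl⟩
      mul_mem' := by
        rintro f f' ⟨g, hg⟩ ⟨g', hg'⟩
        exact ⟨g * g', fun v => by rw [mul_smul, hg', hg]; rfl⟩
      inv_mem' := by
        rintro f ⟨g, hg⟩
        refine ⟨g⁻¹, fun v => ?_⟩
        rw [inv_smul_eq_iff, hg]
        exact congrArg φ ((Multiplicative.toAdd f).apply_symm_apply v).symm }
  let Tg : Subgroup H :=
    { carrier := {g | ∃ f : L, ∀ v, g • φ v = φ (app f v)}
      one_mem' := ⟨1, fun v => by rw [one_smul]; rfl⟩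
      mul_mem' := by
        rintro g g' ⟨f, hf⟩ ⟨f', hf'⟩
        exact ⟨f * f', fun v => by rw [mul_smul, hf', hf]; rfl⟩
      inv_mem' := by
        rintro g ⟨f, hf⟩
        refine ⟨f⁻¹, fun v => ?_⟩
        rw [inv_smul_eq_iff, hf]
        exact congrArg φ ((Multiplicative.toAdd f).apply_symm_apply v).symm }
  choose q hq using fun g : Tg => g.2
  have huniq : ∀ {g : H} {f f' : L}, (∀ v, g • φ v = φ (app f v)) → (∀ v, g • φ v = φ (app f' v)) →
      f = f' := by
    intro g f f' h h'
    exact Multiplicative.toAdd.injective (AddEquiv.ext fun v => hinj ((h v).symm.trans (h' v)))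
  let ψ : Tg →* M := MonoidHom.mk' (fun g => ⟨q g, g, hq g⟩) fun g g' =>
    Subtype.ext (huniq (hq (g * g')) fun v => by
      show ((g : H) * (g' : H)) • φ v = φ (app (q g) (app (q g') v))
      rw [mul_smul, hq, hq])
  haveI : Group.IsSolvable Tg := inferInstance
  haveI : Group.IsSolvable M := by
    refine Group.isSolvable_of_surjective (f := ψ) ?_
    rintro ⟨f, g, hg⟩
    exact ⟨⟨g, f, hg⟩, Subtype.ext (huniq (hq _) hg)⟩
  haveI : Finite (AddAut (Fin 3 → ZMod p)) :=
    Finite.of_injective (fun f : AddAut (Fin 3 → ZMod p) => (f : (Fin 3 → ZMod p) → Fin 3 → ZMod p))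
      DFunLike.coe_injective
  haveI : Finite L := Finite.of_equiv _ Multiplicative.ofAdd
  obtain ⟨π, hπ⟩ := five_reps (not_solvable_addAut p) M
  let e : Fin 3 → Fin 3 → ZMod p := fun i => Pi.single i 1
  have hspan : ∀ (g : H) (f : L) (f' : L), (∀ i, g • φ (app f (e i)) = φ (app f' (e i))) →
      ∀ v, g • φ (app f v) = φ (app f' v) := by
    intro g f f' h v
    let A₁ : (Fin 3 → ZMod p) →+ X := (DistribSMul.toAddMonoidHom X g).comp
      (φ.toAddMonoidHom.comp (Multiplicative.toAdd f).toAddMonoidHom)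
    let A₂ : (Fin 3 → ZMod p) →+ X := φ.toAddMonoidHom.comp (Multiplicative.toAdd f').toAddMonoidHom
    have : A₁.toZModLinearMap p = A₂.toZModLinearMap p :=
      LinearMap.pi_ext' fun i => LinearMap.ext_ring (h i)
    exact congrArg (fun l : (Fin 3 → ZMod p) →ₗ[ZMod p] X => l v) this
  refine ⟨fun i => (φ (app (π i)⁻¹ (e 0)), φ (app (π i)⁻¹ (e 1)), φ (app (π i)⁻¹ (e 2))),
    fun i g h0 h1 h2 => ?_, ?_⟩
  · have hall := hspan g (π i)⁻¹ (π i)⁻¹ (fun j => by fin_cases j <;> assumption)
    have hfix : ∀ w, g • φ w = φ w := fun w => by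
      have h := hall (app (π i) w)
      rwa [show app (π i)⁻¹ (app (π i) w) = w from
        (Multiplicative.toAdd (π i)).symm_apply_apply w] at h
    exact habc g (by simpa [hφv, e] using hfix (e 0)) (by simpa [hφv, e] using hfix (e 1))
      (by simpa [hφv, e] using hfix (e 2))
  · rintro i j ⟨g, hg⟩
    refine (hπ j i ⟨g, fun v => ?_⟩).symm
    simp only [Prod.ext_iff, Prod.smul_fst, Prod.smul_snd] at hg
    have hall := hspan g (π i)⁻¹ (π j)⁻¹ (fun l => by
      fin_cases l
      · exact hg.1
      · exact hg.2.1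
      · exact hg.2.2)
    have h := hall (app (π i) v)
    rw [show app (π i)⁻¹ (app (π i) v) = v from
      (Multiplicative.toAdd (π i)).symm_apply_apply v] at h
    exact h

section Reductions

variable {G : Type u} [Group G] [Finite G] {V : Type u} [AddCommGroup V] [DistribMulAction G V]
  [Finite V]

theorem triple_of_reducible (hs : Group.IsSolvable G) (hV : CR G V) (ih : HasTriple.{u} (Nat.card V))
    {U : AddSubgroup V} (hU : Inv G V U) (h0 : U ≠ ⊥) (h1 : U ≠ ⊤) :
    ∃ a b c : V, RegTriple G V a b c := by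
  obtain ⟨W, hW, hdis, hsup⟩ := hV U hU
  have hW1 : W ≠ ⊤ := fun h => h0 (by rw [h, inf_top_eq] at hdis; exact hdis)
  have hlt : ∀ S : AddSubgroup V, S ≠ ⊤ → Nat.card S < Nat.card V := fun S hS => by
    obtain ⟨x, hx⟩ : ∃ x, x ∉ S := by
      by_contra hno
      push Not at hno
      exact hS (eq_top_iff.2 fun x _ => hno x)
    exact Finite.card_subtype_lt (x := x) hx
  letI := subAction hU
  obtain ⟨a, b, c, habc⟩ := ih G U (hlt U h1) hs (cr_sub hV hU)
  letI := subAction hW
  obtain ⟨a', b', c', habc'⟩ := ih G W (hlt W hW1) hs (cr_sub hV hW)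
  refine ⟨a + a', b + b', c + c', fun g hv hw hz x => ?_⟩
  have key : ∀ (s : U) (t : W), g • ((s : V) + t) = s + t → g • s = s ∧ g • t = t := by
    intro s t h
    rw [smul_add] at h
    have he : g • (s : V) - s = (t : V) - g • (t : V) := by
      rw [sub_eq_sub_iff_add_eq_add, h, add_comm]
    have hm : g • (s : V) - s ∈ U ⊓ W :=
      ⟨U.sub_mem (hU g _ s.2) s.2, he ▸ W.sub_mem t.2 (hW g _ t.2)⟩
    rw [hdis, AddSubgroup.mem_bot] at hm
    refine ⟨Subtype.ext (sub_eq_zero.1 hm), Subtype.ext ?_⟩
    rw [hm] at he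
    exact (sub_eq_zero.1 he.symm).symm
  obtain ⟨h1, h2⟩ := key a a' hv
  obtain ⟨h3, h4⟩ := key b b' hw
  obtain ⟨h5, h6⟩ := key c c' hz
  have hx : x ∈ U ⊔ W := hsup ▸ AddSubgroup.mem_top x
  obtain ⟨s, hs, t, ht, rfl⟩ := AddSubgroup.mem_sup.1 hx
  rw [smul_add, show g • s = s from congrArg Subtype.val (habc g h1 h3 h5 ⟨s, hs⟩),
    show g • t = t from congrArg Subtype.val (habc' g h2 h4 h6 ⟨t, ht⟩)]

theorem triple_of_imprim (hs : Group.IsSolvable G) (hirr : Irr G V)
    (ih : HasTriple.{u} (Nat.card V)) (him : Imprim G V) : ∃ a b c : V, RegTriple G V a b c := by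
  classical
  obtain ⟨𝔇, hinv, hnt, hne, hind⟩ := him
  let Ds : SubMulAction G (AddSubgroup V) := ⟨𝔇, fun g D hD => hinv g D hD⟩
  haveI : Finite (AddSubgroup V) := Finite.of_injective (fun D : AddSubgroup V => (D : Set V)) SetLike.coe_injective
  letI := Fintype.ofFinite Ds
  have hindep : ∀ f : Ds → V, (∀ D : Ds, f D ∈ (D : AddSubgroup V)) → ∑ D, f D = 0 → ∀ D, f D = 0 := by
    intro f hf hsum D
    let s : Finset (AddSubgroup V) := Finset.univ.map (Function.Embedding.subtype _ : Ds ↪ AddSubgroup V)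
    let F : AddSubgroup V → V := fun S => if h : S ∈ 𝔇 then f ⟨S, h⟩ else 0
    have hF : ∀ S : Ds, F (S : AddSubgroup V) = f S := fun S =>
      (dif_pos (show (S : AddSubgroup V) ∈ 𝔇 from S.2))
    have h := hind s F (fun S hS => by
        obtain ⟨S', -, rfl⟩ := Finset.mem_map.1 hS; exact S'.2)
      (fun S hS => by obtain ⟨S', -, rfl⟩ := Finset.mem_map.1 hS; show F S' ∈ _; rw [hF]; exact hf S')
      (by rw [Finset.sum_map]; exact (Finset.sum_congr rfl fun S _ => hF S).trans hsum)
      (D : AddSubgroup V) (Finset.mem_map.2 ⟨D, Finset.mem_univ _, rfl⟩)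
    rwa [hF] at h
  obtain ⟨D₀, hD₀, D₁, hD₁, hD01⟩ := hnt
  let B : Ds := ⟨D₀, hD₀⟩
  have htr : ∀ C : Ds, ∃ g : G, g • B = C := by
    intro C
    by_contra hno
    push Not at hno
    let S : AddSubgroup V := ⨆ D : {D : Ds // ∃ g : G, g • B = D}, ((D : Ds) : AddSubgroup V)
    have hS : Inv G V S := by
      intro g x hx
      refine AddSubgroup.iSup_induction _ (C := fun x => g • x ∈ S) hx (fun D y hy => ?_)
        (by rw [smul_zero]; exact S.zero_mem) (fun y z hy hz => by rw [smul_add]; exact S.add_mem hy hz)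
      obtain ⟨k, hk⟩ := D.2
      exact AddSubgroup.mem_iSup_of_mem ⟨g • (D : Ds), g * k, by rw [mul_smul, hk]⟩
        (AddSubgroup.smul_mem_pointwise_smul y g _ hy)
    have hSne : S ≠ ⊥ := fun h => hne D₀ hD₀ (eq_bot_iff.2 (h ▸
      le_iSup (fun D : {D : Ds // ∃ g : G, g • B = D} => ((D : Ds) : AddSubgroup V)) ⟨B, 1, one_smul _ _⟩))
    have htop := (hirr S hS).resolve_left hSne
    obtain ⟨x, hx, hx0⟩ := (AddSubgroup.bot_or_exists_ne_zero (C : AddSubgroup V)).resolve_left (hne _ C.2)
    have hxS : x ∈ S := htop ▸ AddSubgroup.mem_top x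
    obtain ⟨f, hf, hfC, hfx⟩ : ∃ f : Ds → V, (∀ D : Ds, f D ∈ (D : AddSubgroup V)) ∧ f C = 0 ∧ ∑ D, f D = x := by
      refine AddSubgroup.iSup_induction _ (C := fun x => ∃ f : Ds → V,
        (∀ D : Ds, f D ∈ (D : AddSubgroup V)) ∧ f C = 0 ∧ ∑ D, f D = x) hxS ?_ ?_ ?_
      · intro D y hy
        refine ⟨Pi.single (D : Ds) y, fun E => ?_, ?_, Finset.sum_pi_single' _ _ _ |>.trans (by simp)⟩
        · by_cases h : E = (D : Ds)
          · subst h; rw [Pi.single_eq_same]; exact hy
          · rw [Pi.single_eq_of_ne h]; exact AddSubgroup.zero_mem _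
        · obtain ⟨k, hk⟩ := D.2
          exact Pi.single_eq_of_ne (fun h => hno k (hk.trans h.symm)) _
      · exact ⟨0, fun D => AddSubgroup.zero_mem _, rfl, by simp⟩
      · rintro y z ⟨f, hf, hf0, hfy⟩ ⟨f', hf', hf0', hfz⟩
        exact ⟨f + f', fun D => AddSubgroup.add_mem _ (hf D) (hf' D), by simp [hf0, hf0'],
          by simp [Finset.sum_add_distrib, hfy, hfz]⟩
    have := hindep (f - Pi.single C x) (fun D => by
      rw [Pi.sub_apply]
      refine AddSubgroup.sub_mem _ (hf D) ?_
      by_cases h : D = C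
      · subst h; rw [Pi.single_eq_same]; exact hx
      · rw [Pi.single_eq_of_ne h]; exact AddSubgroup.zero_mem _) (by
      simp [Finset.sum_sub_distrib, hfx, Finset.sum_pi_single']) C
    rw [Pi.sub_apply, hfC, Pi.single_eq_same, zero_sub, neg_eq_zero] at this
    exact hx0 this
  choose t ht using htr
  have ht' : ∀ C : Ds, t C • D₀ = (C : AddSubgroup V) := fun C => congrArg Subtype.val (ht C)
  let H := stabilizer G B
  have hHD : Inv H V D₀ := fun h x hx => by
    rw [Subgroup.smul_def]
    have : (h : G) • D₀ = D₀ := congrArg Subtype.val h.2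
    exact this ▸ AddSubgroup.smul_mem_pointwise_smul x (h : G) D₀ hx
  letI := subAction hHD
  have hpiece : ∀ X : AddSubgroup D₀, Inv H D₀ X → X = ⊥ ∨ X = ⊤ := by
    intro X hX
    by_cases hX0 : X = ⊥
    · exact Or.inl hX0
    refine Or.inr (eq_top_iff.2 fun d _ => ?_)
    let T : Ds → AddSubgroup V := fun C => t C • (X.map D₀.subtype)
    have hTle : ∀ C, T C ≤ (C : AddSubgroup V) := fun C => by
      calc T C ≤ t C • D₀ := AddSubgroup.pointwise_smul_le_pointwise_smul_iff.2
            (AddSubgroup.map_subtype_le X)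
        _ = (C : AddSubgroup V) := congrArg Subtype.val (ht C)
    have hTinv : ∀ (g : G) C, g • T C ≤ T (g • C) := by
      intro g C
      have hst : (t (g • C))⁻¹ * g * t C ∈ H := by
        rw [mem_stabilizer_iff, mul_smul, mul_smul, ht C, inv_smul_eq_iff, ht (g • C)]
      rintro _ ⟨_, ⟨_, ⟨y, hy, rfl⟩, rfl⟩, rfl⟩
      refine ⟨((t (g • C))⁻¹ * g * t C) • (y : V), ⟨_, hX ⟨_, hst⟩ y hy, rfl⟩, ?_⟩
      show t (g • C) • (((t (g • C))⁻¹ * g * t C) • (y : V)) = g • t C • (y : V)
      rw [← mul_smul, ← mul_smul]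
      congr 1
      group
    let S : AddSubgroup V := ⨆ C, T C
    have hS : Inv G V S := by
      intro g x hx
      refine AddSubgroup.iSup_induction _ (C := fun x => g • x ∈ S) hx (fun C y hy => ?_)
        (by rw [smul_zero]; exact S.zero_mem) (fun y z hy hz => by rw [smul_add]; exact S.add_mem hy hz)
      exact AddSubgroup.mem_iSup_of_mem (g • C) (hTinv g C (AddSubgroup.smul_mem_pointwise_smul y g _ hy))
    have hSne : S ≠ ⊥ := by
      intro h
      obtain ⟨y, hy, hy0⟩ := (AddSubgroup.bot_or_exists_ne_zero X).resolve_left hX0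
      have : t B • (y : V) ∈ S := AddSubgroup.mem_iSup_of_mem B
        (AddSubgroup.smul_mem_pointwise_smul _ _ _ ⟨y, hy, rfl⟩)
      rw [h, AddSubgroup.mem_bot, smul_eq_zero_iff_eq] at this
      exact hy0 (Subtype.ext this)
    have htop := (hirr S hS).resolve_left hSne
    have hdS : t B • (d : V) ∈ S := htop ▸ AddSubgroup.mem_top _
    obtain ⟨f, hf, hfx⟩ : ∃ f : Ds → V, (∀ C, f C ∈ T C) ∧ ∑ C, f C = t B • (d : V) := by
      refine AddSubgroup.iSup_induction _ (C := fun x => ∃ f : Ds → V, (∀ C, f C ∈ T C) ∧ ∑ C, f C = x)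
        hdS ?_ ?_ ?_
      · intro D y hy
        refine ⟨Pi.single D y, fun E => ?_, by simp [Finset.sum_pi_single']⟩
        by_cases h : E = D
        · subst h; rw [Pi.single_eq_same]; exact hy
        · rw [Pi.single_eq_of_ne h]; exact AddSubgroup.zero_mem _
      · exact ⟨0, fun D => AddSubgroup.zero_mem _, by simp⟩
      · rintro y z ⟨f, hf, hfy⟩ ⟨f', hf', hfz⟩
        exact ⟨f + f', fun D => AddSubgroup.add_mem _ (hf D) (hf' D),
          by simp [Finset.sum_add_distrib, hfy, hfz]⟩
    have hdB : t B • (d : V) ∈ (B : AddSubgroup V) := by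
      rw [← ht' B]
      exact AddSubgroup.smul_mem_pointwise_smul _ _ _ d.2
    have h := hindep (f - Pi.single B (t B • (d : V))) (fun C => by
      rw [Pi.sub_apply]
      refine AddSubgroup.sub_mem _ (hTle C (hf C)) ?_
      by_cases h : C = B
      · subst h; rw [Pi.single_eq_same]; exact hdB
      · rw [Pi.single_eq_of_ne h]; exact AddSubgroup.zero_mem _) (by
      simp [Finset.sum_sub_distrib, hfx, Finset.sum_pi_single']) B
    rw [Pi.sub_apply, Pi.single_eq_same, sub_eq_zero] at h
    have hm := hf B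
    rw [h, AddSubgroup.smul_mem_pointwise_smul_iff] at hm
    obtain ⟨y, hy, hyd⟩ := hm
    rwa [show y = d from Subtype.ext hyd] at hy
  have hlt : Nat.card D₀ < Nat.card V := by
    obtain ⟨y, hy, hy0⟩ := (AddSubgroup.bot_or_exists_ne_zero D₁).resolve_left (hne D₁ hD₁)
    refine Finite.card_subtype_lt (x := y) fun hy' => hy0 ?_
    let C : Ds := ⟨D₁, hD₁⟩
    have hCB : C ≠ B := fun h => hD01 (congrArg Subtype.val h).symm
    have h := hindep (Pi.single C y - Pi.single B y) (fun D => by
      rw [Pi.sub_apply]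
      refine AddSubgroup.sub_mem _ ?_ ?_
      · by_cases h : D = C
        · subst h; rw [Pi.single_eq_same]; exact hy
        · rw [Pi.single_eq_of_ne h]; exact AddSubgroup.zero_mem _
      · by_cases h : D = B
        · subst h; rw [Pi.single_eq_same]; exact hy'
        · rw [Pi.single_eq_of_ne h]; exact AddSubgroup.zero_mem _)
      (by simp [Finset.sum_sub_distrib, Finset.sum_pi_single']) C
    rwa [Pi.sub_apply, Pi.single_eq_same, Pi.single_eq_of_ne hCB, sub_zero] at h
  haveI : Nontrivial D₀ := (AddSubgroup.nontrivial_iff_ne_bot _).2 (hne _ hD₀)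
  have hsH : Group.IsSolvable H := by
    haveI := hs
    infer_instance
  obtain ⟨F, hF, hFne⟩ := five_triples (H := H) (X := D₀) hsH hpiece
    (ih H D₀ hlt hsH (fun X hX => by
        rcases hpiece X hX with h | h
        · exact ⟨⊤, fun _ _ _ => AddSubgroup.mem_top _, by rw [h, bot_inf_eq], by rw [h, bot_sup_eq]⟩
        · exact ⟨⊥, fun g x hx => by rw [AddSubgroup.mem_bot] at hx ⊢; rw [hx, smul_zero],
            by rw [inf_bot_eq], by rw [h, top_sup_eq]⟩))
  have hDs : Nat.card Ds < Nat.card V := by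
    choose z hz hz0 using fun C : Ds => (AddSubgroup.bot_or_exists_ne_zero (C : AddSubgroup V)).resolve_left
      (hne _ C.2)
    refine lt_of_le_of_lt (Nat.card_le_card_of_injective (fun C : Ds => (⟨z C, hz0 C⟩ : {v : V // v ≠ 0}))
      fun C C' h => ?_) (Finite.card_subtype_lt (x := (0 : V)) (by simp))
    by_contra hCC
    have hzC : z C = z C' := congrArg Subtype.val h
    have h' := hindep (Pi.single C (z C) - Pi.single C' (z C')) (fun D => by
      rw [Pi.sub_apply]
      refine AddSubgroup.sub_mem _ ?_ ?_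
      · by_cases h : D = C
        · subst h; rw [Pi.single_eq_same]; exact hz D
        · rw [Pi.single_eq_of_ne h]; exact AddSubgroup.zero_mem _
      · by_cases h : D = C'
        · subst h; rw [Pi.single_eq_same]; exact hz D
        · rw [Pi.single_eq_of_ne h]; exact AddSubgroup.zero_mem _)
      (by simp [Finset.sum_sub_distrib, Finset.sum_pi_single', hzC]) C
    rw [Pi.sub_apply, Pi.single_eq_same, Pi.single_eq_of_ne hCC, sub_zero] at h'
    exact hz0 C h'
  obtain ⟨d, hd⟩ := exists_rigid ih G Ds hs hDs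
  let col : Ds → D₀ × D₀ × D₀ := fun C => F (d C)
  have hcomp : ∀ (c : Ds → D₀) (g : G), g • (∑ C, t C • (c C : V)) = ∑ C, t C • (c C : V) →
      ∀ C, g • t C • (c C : V) = t (g • C) • (c (g • C) : V) := by
    intro c g hg C
    let u : Ds → V := fun C => t C • (c C : V)
    have hu : ∀ D : Ds, u D ∈ (D : AddSubgroup V) := fun D => by
      rw [← ht' D]
      exact AddSubgroup.smul_mem_pointwise_smul _ _ _ (c D).2
    have hsum : ∑ D, (g • u (g⁻¹ • D) - u D) = 0 := by
      rw [Finset.sum_sub_distrib, sub_eq_zero, ← Finset.smul_sum]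
      exact (congrArg (g • ·) (Equiv.sum_comp (MulAction.toPerm g⁻¹) u)).trans hg
    have h := hindep (fun D => g • u (g⁻¹ • D) - u D) (fun D => by
      refine AddSubgroup.sub_mem _ ?_ (hu D)
      have := AddSubgroup.smul_mem_pointwise_smul _ g _ (hu (g⁻¹ • D))
      rwa [show g • ((g⁻¹ • D : Ds) : AddSubgroup V) = D from smul_inv_smul g (D : AddSubgroup V)] at this) hsum (g • C)
    rw [inv_smul_smul, sub_eq_zero] at h
    exact h
  refine ⟨∑ C, t C • ((col C).1 : V), ∑ C, t C • ((col C).2.1 : V),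
    ∑ C, t C • ((col C).2.2 : V), fun g hv hw hz => ?_⟩
  have hmove : ∀ C, ∃ h : H, (h : G) = (t (g • C))⁻¹ * g * t C ∧ h • col C = col (g • C) := by
    intro C
    have hst : (t (g • C))⁻¹ * g * t C ∈ H := by
      rw [mem_stabilizer_iff, mul_smul, mul_smul, ht C, inv_smul_eq_iff, ht (g • C)]
    refine ⟨⟨_, hst⟩, rfl, Prod.ext (Subtype.ext ?_) (Prod.ext (Subtype.ext ?_) (Subtype.ext ?_))⟩
    · show ((t (g • C))⁻¹ * g * t C) • ((col C).1 : V) = _
      rw [mul_smul, mul_smul, hcomp (fun D => (col D).1) g hv C, inv_smul_smul]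
    · show ((t (g • C))⁻¹ * g * t C) • ((col C).2.1 : V) = _
      rw [mul_smul, mul_smul, hcomp (fun D => (col D).2.1) g hw C, inv_smul_smul]
    · show ((t (g • C))⁻¹ * g * t C) • ((col C).2.2 : V) = _
      rw [mul_smul, mul_smul, hcomp (fun D => (col D).2.2) g hz C, inv_smul_smul]
  have hall : ∀ C : Ds, g • C = C := hd g fun C => by
    obtain ⟨h, -, h1⟩ := hmove C
    exact (hFne _ _ ⟨h, h1⟩).symm
  have hfixD : ∀ (C : Ds) (x : V), x ∈ (C : AddSubgroup V) → g • x = x := by
    intro C x hx
    rw [← ht' C] at hx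
    obtain ⟨y, hy, rfl⟩ := hx
    show g • (t C • y) = t C • y
    obtain ⟨h, hh, h1⟩ := hmove C
    rw [hall C] at hh h1
    simp only [Prod.ext_iff, Prod.smul_fst, Prod.smul_snd] at h1
    have := congrArg Subtype.val (hF (d C) h h1.1 h1.2.1 h1.2.2 ⟨y, hy⟩)
    change (h : G) • y = y at this
    rw [hh, mul_smul, mul_smul, inv_smul_eq_iff] at this
    exact this
  intro x
  have htop : (⨆ C : Ds, (C : AddSubgroup V)) = ⊤ := by
    refine (hirr _ (fun g x hx => ?_)).resolve_left
      (fun h => hne D₀ hD₀ (eq_bot_iff.2 (h ▸ le_iSup (fun C : Ds => (C : AddSubgroup V)) B)))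
    refine AddSubgroup.iSup_induction _ (C := fun x => g • x ∈ _) hx (fun C y hy => ?_)
      (by rw [smul_zero]; exact AddSubgroup.zero_mem _)
      (fun y z hy hz => by rw [smul_add]; exact AddSubgroup.add_mem _ hy hz)
    exact AddSubgroup.mem_iSup_of_mem (g • C) (AddSubgroup.smul_mem_pointwise_smul y g _ hy)
  have hx : x ∈ ⨆ C : Ds, (C : AddSubgroup V) := htop ▸ AddSubgroup.mem_top x
  exact AddSubgroup.iSup_induction _ (C := fun x => g • x = x) hx hfixD (smul_zero g)
    (fun y z hy hz => by rw [smul_add, hy, hz])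

end Reductions

end Cfsg.Agent.H67.Base3
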