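import Cfsg.Agent.H67.Base3.Primitive

/-! Completely reducible modules of soluble groups have three vectors with trivial common
stabiliser. -/

set_option autoImplicit false
set_option linter.unusedSectionVars false
set_option linter.style.haveILetI false

namespace Cfsg.Agent.H67.Base3

open Cfsg.Agent.H52.RegPair (Inv CR Irr Imprim)

universe u

theorem hasTriple (N : ℕ) : HasTriple.{u} N := by
  induction N with
  | zero => intro H _ _ X _ _ _ hlt; exact absurd hlt (Nat.not_lt_zero _)
  | succ N ih =>
    have faithful : ∀ (H : Type u) [Group H] [Finite H] (X : Type u) [AddCommGroup X] [Finite X]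
        [DistribMulAction H X] [FaithfulSMul H X], Nat.card X < N + 1 → Group.IsSolvable H → CR H X →
          ∃ a b c : X, RegTriple H X a b c := by
      intro H _ _ X _ _ _ _ hlt hH hX
      have ih' : HasTriple.{u} (Nat.card X) := fun H' _ _ Y _ _ _ hY hH' hY' =>
        ih H' Y (lt_of_lt_of_le hY (Nat.lt_succ_iff.1 hlt)) hH' hY'
      cases subsingleton_or_nontrivial X with
      | inl hs => exact ⟨0, 0, 0, fun g _ _ _ x => Subsingleton.elim _ _⟩
      | inr hnt =>
        by_cases hirr : Irr H X
        · by_cases him : Imprim H X
          · exact triple_of_imprim hH hirr ih' him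
          · exact triple_of_primitive hH hirr him
        · simp only [Irr, not_forall] at hirr
          obtain ⟨U, hU, hne⟩ := hirr
          rw [not_or] at hne
          exact triple_of_reducible hH hX ih' hU hne.1 hne.2
    intro H _ _ X _ _ _ hlt hH hX
    haveI := hH
    let f := DistribMulAction.toAddMonoidEnd H X
    let φ : (H ⧸ f.ker) →* AddMonoid.End X := QuotientGroup.lift f.ker f le_rfl
    letI : DistribMulAction (H ⧸ f.ker) X :=
      { smul := fun a v => φ a v
        one_smul := fun v => DFunLike.congr_fun (map_one φ) v
        mul_smul := fun a b v => DFunLike.congr_fun (map_mul φ a b) v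
        smul_zero := fun a => map_zero (φ a)
        smul_add := fun a x y => map_add (φ a) x y }
    have hmk : ∀ (g : H) (v : X), (QuotientGroup.mk g : H ⧸ f.ker) • v = g • v := fun g v => rfl
    haveI : FaithfulSMul (H ⧸ f.ker) X := ⟨fun {a b} hab => by
      induction a using QuotientGroup.induction_on with
      | _ x =>
        induction b using QuotientGroup.induction_on with
        | _ y =>
          refine QuotientGroup.eq.2 (MonoidHom.mem_ker.2 ?_)
          have h : f x = f y := AddMonoidHom.ext hab
          rw [map_mul, ← h, ← map_mul, inv_mul_cancel, map_one]⟩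
    have hsq : Group.IsSolvable (H ⧸ f.ker) :=
      Group.isSolvable_of_surjective (QuotientGroup.mk'_surjective f.ker)
    obtain ⟨a, b, c, h⟩ := faithful (H ⧸ f.ker) X hlt hsq (fun U hU => by
      obtain ⟨W, hW, h1, h2⟩ := hX U (fun g x hx => hmk g x ▸ hU _ x hx)
      refine ⟨W, fun a x hx => ?_, h1, h2⟩
      induction a using QuotientGroup.induction_on with
      | _ g => rw [hmk]; exact hW g x hx)
    exact ⟨a, b, c, fun g h1 h2 h3 x => by
      rw [← hmk] at h1 h2 h3 ⊢
      exact h _ h1 h2 h3 x⟩

theorem exists_regTriple (G : Type u) [Group G] [Finite G] (V : Type u) [AddCommGroup V] [Finite V]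
    [DistribMulAction G V] (hs : Group.IsSolvable G) (hV : CR G V) :
    ∃ a b c : V, RegTriple G V a b c :=
  hasTriple (Nat.card V + 1) G V (Nat.lt_succ_self _) hs hV

end Cfsg.Agent.H67.Base3
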