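import Mathlib

/-! Rigid pairs of small subsets of a finite abelian group: every automorphism preserving both is
the identity, and together they contain a basis with all sums of two basis elements. -/

set_option autoImplicit false
set_option linter.unusedSectionVars false
set_option linter.style.haveILetI false
set_option linter.unreachableTactic false
set_option linter.unusedTactic false

namespace Cfsg.Agent.H67.Base3

variable {A : Type*} [AddCommGroup A]

/-- A coordinate system of a finite abelian group. -/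
structure Coords (A : Type*) [AddCommGroup A] (k : ℕ) where
  n : Fin k → ℕ
  hn : ∀ i, 1 < n i
  δ : Fin k → A
  co : (i : Fin k) → A →+ ZMod (n i)
  co_δ : ∀ i j, co i (δ j) = if i = j then 1 else 0
  gen : AddSubgroup.closure (Set.range δ) = ⊤

theorem exists_coords (A : Type*) [AddCommGroup A] [Finite A] : ∃ k, Nonempty (Coords A k) := by
  classical
  obtain ⟨ι, hι, n, hn, ⟨e⟩⟩ := AddCommGroup.equiv_directSum_zmod_of_finite' A
  letI := hι
  let q := Fintype.equivFin ι
  refine ⟨Fintype.card ι, ⟨{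
    n := fun i => n (q.symm i)
    hn := fun i => hn _
    δ := fun i => e.symm (DirectSum.of (fun j => ZMod (n j)) (q.symm i) 1)
    co := fun i => (DFinsupp.evalAddMonoidHom (q.symm i)).comp e.toAddMonoidHom
    co_δ := fun i j => ?_
    gen := ?_ }⟩⟩
  · show (e (e.symm (DirectSum.of (fun j => ZMod (n j)) (q.symm j) 1))) (q.symm i) = _
    rw [AddEquiv.apply_symm_apply]
    by_cases h : i = j
    · subst h; simp
    · rw [if_neg h, DirectSum.of_eq_of_ne]
      exact fun e => h (q.symm.injective e)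
  · refine eq_top_iff.2 fun a _ => ?_
    suffices h : ∀ x, e.symm x ∈ AddSubgroup.closure
        (Set.range fun i => e.symm (DirectSum.of (fun j => ZMod (n j)) (q.symm i) 1)) by
      simpa using h (e a)
    intro x
    induction x using DirectSum.induction_on with
    | zero => rw [map_zero]; exact zero_mem _
    | of i b =>
      obtain ⟨m, rfl⟩ := ZMod.intCast_surjective b
      rw [← zsmul_one m, map_zsmul, map_zsmul]
      refine zsmul_mem (AddSubgroup.subset_closure (Set.mem_range.2 ⟨q i, ?_⟩)) m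
      have h : q.symm (q i) = i := q.symm_apply_apply i
      congr! 1
      rw [h]
    | add x y hx hy => rw [map_add]; exact add_mem hx hy

namespace Coords

variable {k : ℕ} (C : Coords A k)

/-- The sum of a set of basis elements. -/
def sumδ (S : Finset (Fin k)) : A := ∑ i ∈ S, C.δ i

theorem co_sum (S : Finset (Fin k)) (i : Fin k) :
    C.co i (C.sumδ S) = if i ∈ S then 1 else 0 := by
  rw [sumδ, map_sum]
  simp only [C.co_δ]
  rw [Finset.sum_ite_eq]

theorem one_ne (i : Fin k) : (1 : ZMod (C.n i)) ≠ 0 := by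
  haveI : Fact (1 < C.n i) := ⟨C.hn i⟩
  exact one_ne_zero

theorem sum_inj {S T : Finset (Fin k)} (h : C.sumδ S = C.sumδ T) : S = T := by
  ext i
  have h' := congrArg (C.co i) h
  rw [C.co_sum, C.co_sum] at h'
  by_cases h1 : i ∈ S <;> by_cases h2 : i ∈ T <;> simp only [h1, h2, if_true, if_false] at h' ⊢
  · exact absurd h' (C.one_ne i)
  · exact absurd h'.symm (C.one_ne i)

theorem sum_single (i : Fin k) : C.sumδ {i} = C.δ i := by simp [sumδ]

theorem sum_pair {i j : Fin k} (h : i ≠ j) : C.sumδ {i, j} = C.δ i + C.δ j := by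
  simp [sumδ, Finset.sum_insert, h]

theorem δ_inj {i j : Fin k} (h : C.δ i = C.δ j) : i = j := by
  rw [← C.sum_single, ← C.sum_single] at h
  simpa using C.sum_inj h

theorem δ_ne (i : Fin k) : C.δ i ≠ 0 := fun h => by
  have h' := congrArg (C.co i) h
  rw [C.co_δ, if_pos rfl, map_zero] at h'
  exact C.one_ne i h'

theorem add_ne_δ (i j l : Fin k) : C.δ i + C.δ j ≠ C.δ l := by
  intro h
  by_cases hij : i = j
  · subst hij
    by_cases hil : i = l
    · subst hil
      exact C.δ_ne i (add_eq_right.1 h)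
    · have h' := congrArg (C.co l) h
      rw [map_add, C.co_δ, C.co_δ, if_pos rfl, if_neg (Ne.symm hil), add_zero] at h'
      exact C.one_ne l h'.symm
  · rw [← C.sum_pair hij, ← C.sum_single] at h
    have h' := congrArg Finset.card (C.sum_inj h)
    rw [Finset.card_pair hij, Finset.card_singleton] at h'
    omega

theorem ext_of_δ {f : A →+ A} (h : ∀ i, f (C.δ i) = C.δ i) (a : A) : f a = a := by
  have ha : a ∈ AddSubgroup.closure (Set.range C.δ) := C.gen ▸ AddSubgroup.mem_top a
  induction ha using AddSubgroup.closure_induction with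
  | mem x hx => obtain ⟨i, rfl⟩ := hx; exact h i
  | zero => exact map_zero f
  | add x y _ _ hx hy => rw [map_add, hx, hy]
  | neg x _ hx => rw [map_neg, hx]

/-- The non-zero sums of two basis elements. -/
def pairs : Set A := {a | a ≠ 0 ∧ ∃ i j, a = C.δ i + C.δ j}

/-- What the two subsets have to satisfy. -/
def IsRigidPair (P Q : Set A) : Prop :=
  (0 : A) ∉ P ∧ (0 : A) ∉ Q ∧ (∀ i, C.δ i ∈ P ∪ Q) ∧ C.pairs ⊆ P ∪ Q ∧
    ∀ f : A →+ A, Function.Injective f → (∀ a, f a ∈ P ↔ a ∈ P) → (∀ a, f a ∈ Q ↔ a ∈ Q) →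
      ∀ a, f a = a

theorem exists_rigid_large (hk : 4 ≤ k) : ∃ P Q, C.IsRigidPair P Q := by
  classical
  let c0 : Fin k := ⟨0, by omega⟩
  let c1 : Fin k := ⟨1, by omega⟩
  let c3 : Fin k := ⟨3, by omega⟩
  let pre : ℕ → Finset (Fin k) := fun j => Finset.univ.filter fun i => i.val < j
  have hpre : ∀ j, j ≤ k → (pre j).card = j := fun j hj => by
    have := Fin.card_filter_val_lt (n := k) (m := j)
    simpa [pre, Nat.min_eq_right hj] using this
  let 𝔅 : Set (Finset (Fin k)) :=
    {S | S = {c0, c1} ∨ S = {c1, c3} ∨ ∃ j, 3 ≤ j ∧ j ≤ k ∧ S = pre j}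
  have h01 : c0 ≠ c1 := by simp [c0, c1]
  have h13 : c1 ≠ c3 := by simp [c1, c3]
  have hcard : ∀ S ∈ 𝔅, 2 ≤ S.card := by
    rintro S (rfl | rfl | ⟨j, hj, hjk, rfl⟩)
    · rw [Finset.card_pair h01]
    · rw [Finset.card_pair h13]
    · rw [hpre j hjk]; omega
  let Bo : Set A := C.sumδ '' 𝔅
  have hBo : ∀ l, C.δ l ∉ Bo := by
    rintro l ⟨S, hS, h⟩
    rw [← C.sum_single] at h
    have := hcard S hS
    rw [C.sum_inj h, Finset.card_singleton] at this
    omega
  have hBo0 : (0 : A) ∉ Bo := by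
    rintro ⟨S, hS, h⟩
    have hS' : C.sumδ S = C.sumδ ∅ := by rw [h]; simp [sumδ]
    have := hcard S hS
    rw [C.sum_inj hS', Finset.card_empty] at this
    omega
  refine ⟨Set.range C.δ ∪ Bo, Bo ∪ C.pairs, ?_, ?_, fun i => Or.inl (Or.inl ⟨i, rfl⟩),
    fun a ha => Or.inr (Or.inr ha), ?_⟩
  · rintro (⟨i, hi⟩ | h)
    · exact C.δ_ne i hi
    · exact hBo0 h
  · rintro (h | h)
    · exact hBo0 h
    · exact h.1 rfl
  intro f hf hP hQ
  have hbasis : ∀ i, ∃ j, f (C.δ i) = C.δ j := by
    intro i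
    have h1 : f (C.δ i) ∈ Set.range C.δ ∪ Bo := (hP _).2 (Or.inl ⟨i, rfl⟩)
    have h2 : f (C.δ i) ∉ Bo ∪ C.pairs := fun h => by
      rcases (hQ _).1 h with h | ⟨-, a, b, hab⟩
      · exact hBo i h
      · exact C.add_ne_δ a b i hab.symm
    rcases h1 with ⟨j, hj⟩ | h
    · exact ⟨j, hj.symm⟩
    · exact absurd (Or.inl h) h2
  choose π hπ using hbasis
  have πinj : Function.Injective π := fun a b h => C.δ_inj (hf (by rw [hπ, hπ, h]))
  have hS : ∀ S ∈ 𝔅, S.image π ∈ 𝔅 := by
    intro S hS
    have hfS : f (C.sumδ S) = C.sumδ (S.image π) := by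
      rw [sumδ, map_sum, sumδ, Finset.sum_image fun a _ b _ h => πinj h]
      exact Finset.sum_congr rfl fun i _ => hπ i
    have h1 : f (C.sumδ S) ∈ Set.range C.δ ∪ Bo := (hP _).2 (Or.inr ⟨S, hS, rfl⟩)
    rw [hfS] at h1
    rcases h1 with ⟨l, hl⟩ | ⟨T, hT, hTe⟩
    · exfalso
      rw [← C.sum_single] at hl
      have h := congrArg Finset.card (C.sum_inj hl)
      rw [Finset.card_singleton, Finset.card_image_of_injective _ πinj] at h
      have := hcard S hS
      omega
    · rwa [← C.sum_inj hTe]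
  have hprefix : ∀ j, 3 ≤ j → j ≤ k → (pre j).image π = pre j := by
    intro j hj hjk
    have hc : ((pre j).image π).card = j := by
      rw [Finset.card_image_of_injective _ πinj, hpre j hjk]
    rcases hS _ (Or.inr (Or.inr ⟨j, hj, hjk, rfl⟩)) with h | h | ⟨j', -, hjk', h⟩
    · rw [h, Finset.card_pair h01] at hc; omega
    · rw [h, Finset.card_pair h13] at hc; omega
    · rw [h, hpre j' hjk'] at hc
      rw [h, hc]
  have hlt : ∀ j, 3 ≤ j → j ≤ k → ∀ i : Fin k, ((π i).val < j ↔ i.val < j) := by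
    intro j hj hjk i
    have h := hprefix j hj hjk
    have h1 : π i ∈ (pre j).image π ↔ i ∈ pre j :=
      ⟨fun hm => by
        obtain ⟨a, ha, hae⟩ := Finset.mem_image.1 hm
        rwa [← πinj hae], fun hm => Finset.mem_image_of_mem _ hm⟩
    rw [h] at h1
    simpa [pre] using h1
  have hge : ∀ i : Fin k, 3 ≤ i.val → π i = i := by
    intro i hi
    refine Fin.ext ?_
    have h1 := hlt i.val hi i.2.le i
    have h2 := hlt (i.val + 1) (by omega) i.2 i
    omega
  have e3 : π c3 = c3 := hge c3 le_rfl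
  have two : ∀ a b : Fin k, a ≠ b → ({a, b} : Finset (Fin k)) ∈ 𝔅 →
      ({π a, π b} : Finset (Fin k)) = {c0, c1} ∨ ({π a, π b} : Finset (Fin k)) = {c1, c3} := by
    intro a b hab h
    have hi := hS _ h
    rw [Finset.image_insert, Finset.image_singleton] at hi
    rcases hi with h | h | ⟨j, hj, hjk, h⟩
    · exact Or.inl h
    · exact Or.inr h
    · have := congrArg Finset.card h
      rw [Finset.card_pair (fun e => hab (πinj e)), hpre j hjk] at this
      omega
  have e1 : π c1 = c1 := by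
    rcases two c1 c3 h13 (Or.inr (Or.inl rfl)) with h | h
    · rw [e3] at h
      have : c3 ∈ ({c0, c1} : Finset (Fin k)) := h ▸ by simp
      simp [c0, c1, c3] at this
    · rw [e3] at h
      have : π c1 ∈ ({c1, c3} : Finset (Fin k)) := h ▸ by simp
      simp only [Finset.mem_insert, Finset.mem_singleton] at this
      exact this.resolve_right fun e => h13 (πinj (e.trans e3.symm))
  have e0 : π c0 = c0 := by
    rcases two c0 c1 h01 (Or.inl rfl) with h | h <;> rw [e1] at h
    · have : π c0 ∈ ({c0, c1} : Finset (Fin k)) := h ▸ by simp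
      simp only [Finset.mem_insert, Finset.mem_singleton] at this
      exact this.resolve_right fun e => h01 (πinj (e.trans e1.symm))
    · have : c3 ∈ ({π c0, c1} : Finset (Fin k)) := h.symm ▸ by simp
      simp only [Finset.mem_insert, Finset.mem_singleton] at this
      have h03 : c0 ≠ c3 := by simp [c0, c3]
      exact absurd (πinj ((this.resolve_right (Ne.symm h13)).symm.trans e3.symm)) h03
  refine C.ext_of_δ fun i => ?_
  rw [hπ i]
  congr 1
  rcases Nat.lt_or_ge i.val 3 with hi | hi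
  · have hlt3 : (π i).val < 3 := (hlt 3 le_rfl (by omega) i).2 hi
    have h0' : ∀ a b : Fin k, a.val = b.val → a = b := fun a b h => Fin.ext h
    by_cases hi0 : i = c0
    · subst hi0; exact e0
    by_cases hi1 : i = c1
    · subst hi1; exact e1
    have n0 : π i ≠ c0 := fun e => hi0 (πinj (e.trans e0.symm))
    have n1 : π i ≠ c1 := fun e => hi1 (πinj (e.trans e1.symm))
    refine Fin.ext ?_
    simp only [ne_eq, Fin.ext_iff, c0, c1] at hi0 hi1 n0 n1
    omega
  · exact hge i hi

theorem exists_rigid_small (hk : k ≤ 3) : ∃ P Q, C.IsRigidPair P Q := by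
  classical
  interval_cases k
  · exact ⟨∅, ∅, id, id, fun i => i.elim0, fun a ha => by
      obtain ⟨-, i, -, -⟩ := ha; exact i.elim0, fun f _ _ _ => C.ext_of_δ fun i => i.elim0⟩
  · refine ⟨Set.range C.δ, C.pairs, ?_, fun h => h.1 rfl, fun i => Or.inl ⟨i, rfl⟩,
      fun a ha => Or.inr ha, fun f _ hP _ => C.ext_of_δ fun i => ?_⟩
    · rintro ⟨i, hi⟩; exact C.δ_ne i hi
    · obtain ⟨j, hj⟩ := (hP _).2 ⟨i, rfl⟩
      rw [← hj, Subsingleton.elim j i]
  · refine ⟨Set.range C.δ, insert (C.δ 0) C.pairs, ?_, ?_, fun i => Or.inl ⟨i, rfl⟩,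
      fun a ha => Or.inr (Or.inr ha), fun f hf hP hQ => ?_⟩
    · rintro ⟨i, hi⟩; exact C.δ_ne i hi
    · rintro (h | h)
      · exact C.δ_ne 0 h.symm
      · exact h.1 rfl
    obtain ⟨j, hj⟩ := (hP _).2 ⟨(0 : Fin 2), rfl⟩
    have hj0 : f (C.δ 0) = C.δ 0 := by
      rcases (hQ _).2 (Or.inl rfl) with h | ⟨-, a, b, hab⟩
      · exact h
      · exact absurd (hab.symm.trans hj.symm) (C.add_ne_δ a b j)
    refine C.ext_of_δ (Fin.forall_fin_two.2 ⟨hj0, ?_⟩)
    obtain ⟨l, hl⟩ := (hP _).2 ⟨(1 : Fin 2), rfl⟩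
    rw [← hl]
    fin_cases l
    · exact absurd (C.δ_inj (hf (hl.symm.trans hj0.symm))) (by decide)
    · rfl
  · set e02 : A := C.δ 0 + C.δ 2 with he02
    set R : Set A := {a | a ∈ C.pairs ∧ a ≠ e02} with hR
    have he0 : e02 ≠ 0 := fun h => by
      have h' := congrArg (C.co 0) h
      simp [he02, C.co_δ] at h'
      exact C.one_ne 0 h'
    refine ⟨Set.range C.δ ∪ {e02}, {C.δ 0, e02} ∪ R, ?_, ?_, fun i => Or.inl (Or.inl ⟨i, rfl⟩),
      fun a ha => ?_, fun f hf hP hQ => ?_⟩
    · rintro (⟨i, hi⟩ | h)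
      · exact C.δ_ne i hi
      · exact he0 h.symm
    · rintro ((h | h) | h)
      · exact C.δ_ne 0 h.symm
      · exact he0 h.symm
      · exact h.1.1 rfl
    · by_cases h : a = e02
      · exact Or.inr (Or.inl (Or.inr h))
      · exact Or.inr (Or.inr ⟨ha, h⟩)
    have hmemQ : ∀ i, C.δ i ∈ ({C.δ 0, e02} ∪ R : Set A) → i = 0 := by
      rintro i ((h | h) | ⟨⟨-, a, b, hab⟩, -⟩)
      · exact C.δ_inj h
      · exact absurd h.symm (C.add_ne_δ 0 2 i)
      · exact absurd hab.symm (C.add_ne_δ a b i)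
    have hboth : ∀ a, a ∈ (Set.range C.δ ∪ {e02} : Set A) → a ∈ ({C.δ 0, e02} ∪ R : Set A) →
        a = C.δ 0 ∨ a = e02 := by
      rintro a (⟨i, rfl⟩ | h) h'
      · exact Or.inl (by rw [hmemQ i h'])
      · exact Or.inr h
    have honly : ∀ i : Fin 3, i ≠ 0 → ∃ j : Fin 3, j ≠ 0 ∧ f (C.δ i) = C.δ j := by
      intro i hi
      have hnQ : f (C.δ i) ∉ ({C.δ 0, e02} ∪ R : Set A) := fun h => hi (hmemQ i ((hQ _).1 h))
      rcases (hP _).2 (Or.inl ⟨i, rfl⟩) with ⟨j, hj⟩ | h
      · exact ⟨j, fun e => hnQ (by rw [← hj, e]; exact Or.inl (Or.inl rfl)), hj.symm⟩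
      · exact absurd (Or.inl (Or.inr h)) hnQ
    have h02 : f (C.δ 0) ≠ f e02 := fun h => C.δ_ne 2 (add_eq_left.1 (hf h).symm)
    have f0 : f (C.δ 0) = C.δ 0 ∨ f (C.δ 0) = e02 :=
      hboth _ ((hP _).2 (Or.inl ⟨0, rfl⟩)) ((hQ _).2 (Or.inl (Or.inl rfl)))
    have f02 : f e02 = C.δ 0 ∨ f e02 = e02 :=
      hboth _ ((hP _).2 (Or.inr rfl)) ((hQ _).2 (Or.inl (Or.inr rfl)))
    obtain ⟨j1, hj1, f1⟩ := honly 1 (by decide)
    obtain ⟨j2, hj2, f2⟩ := honly 2 (by decide)
    have hj12 : j1 ≠ j2 := fun e => by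
      exact absurd (C.δ_inj (hf (f1.trans (e ▸ f2.symm)))) (by decide)
    have key : j2 = 2 ∧ f (C.δ 0) = C.δ 0 := by
      rcases f0 with h0 | h0
      · refine ⟨?_, h0⟩
        rcases f02 with h | h
        · exact absurd (h0.trans h.symm) h02
        · rw [he02, map_add, h0, f2, add_right_inj] at h
          exact C.δ_inj h
      · exfalso
        rcases f02 with h | h
        swap
        · exact h02 (h0.trans h.symm)
        rw [he02, map_add, h0, f2, he02, add_assoc, add_eq_left] at h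
        have e2 : j2 = 2 := by
          by_contra hne
          have h' := congrArg (C.co j2) h
          simp [C.co_δ, hne] at h'
          exact C.one_ne j2 h'
        have e1 : j1 = 1 := by subst e2; omega
        subst e1
        have hm : C.δ 0 + C.δ 1 ∈ ({C.δ 0, e02} ∪ R : Set A) := by
          refine Or.inr ⟨⟨fun h => ?_, 0, 1, rfl⟩, fun h => ?_⟩
          · have h' := congrArg (C.co 0) h
            simp [C.co_δ] at h'
            exact C.one_ne 0 h'
          · exact absurd (C.δ_inj (add_left_cancel h)) (by decide)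
        have him := (hQ _).2 hm
        rw [map_add, h0, f1, he02] at him
        rcases him with (h' | h') | ⟨⟨-, a, b, hab⟩, -⟩
        · have h'' := congrArg (C.co 1) h'
          simp [C.co_δ] at h''
          exact C.one_ne 1 h''
        · exact C.δ_ne 1 (add_eq_left.1 h')
        · have c0 := congrArg (C.co 0) hab
          have c1 := congrArg (C.co 1) hab
          have c2 := congrArg (C.co 2) hab
          fin_cases a <;> fin_cases b <;> simp [C.co_δ] at c0 c1 c2 <;>
            first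
              | exact C.one_ne 0 c0 | exact C.one_ne 0 c0.symm
              | exact C.one_ne 1 c1 | exact C.one_ne 1 c1.symm
              | exact C.one_ne 2 c2 | exact C.one_ne 2 c2.symm
    obtain ⟨rfl, h0⟩ := key
    refine C.ext_of_δ fun i => ?_
    fin_cases i
    · exact h0
    · show f (C.δ 1) = C.δ 1
      rw [f1]; congr 1; omega
    · exact f2

theorem exists_rigid : ∃ P Q, C.IsRigidPair P Q := by
  rcases Nat.lt_or_ge k 4 with h | h
  · exact C.exists_rigid_small (by omega)
  · exact C.exists_rigid_large h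

end Coords

end Cfsg.Agent.H67.Base3
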