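import Cfsg.Agent.H67.Base3.Layer
import Cfsg.Agent.H67.Base3.Linear
import Cfsg.Agent.H67.Base3.Rigid

/-! Primitive soluble linear groups have three vectors with trivial common stabiliser. The first
vector is an eigenvector of as large a part of the class two layer as possible; the other two are
sums of its translates over a rigid pair of subsets. -/

set_option autoImplicit false
set_option linter.unusedSectionVars false
set_option linter.style.haveILetI false

namespace Cfsg.Agent.H67.Base3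

open Cfsg.Agent.H52.RegPair (Inv Irr Imprim SemiData)
open scoped Polynomial

universe u

/-- An endomorphism annihilated by a product of linear factors has an eigenvector. -/
theorem exists_eigen {K : Type*} [Field K] {M : Type*} [AddCommGroup M] [Module K M] [Nontrivial M]
    (f : Module.End K M) {ι : Type*} (s : Finset ι) (μ : ι → K)
    (h : Polynomial.aeval f (∏ i ∈ s, (Polynomial.X - Polynomial.C (μ i))) = 0) :
    ∃ i ∈ s, ∃ z : M, z ≠ 0 ∧ f z = μ i • z := by
  classical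
  induction s using Finset.induction_on with
  | empty =>
    obtain ⟨z, hz⟩ := exists_ne (0 : M)
    rw [Finset.prod_empty, map_one] at h
    exact absurd (LinearMap.congr_fun h z) hz
  | insert a s has ih =>
    rw [Finset.prod_insert has, map_mul] at h
    by_cases h' : Polynomial.aeval f (∏ i ∈ s, (Polynomial.X - Polynomial.C (μ i))) = 0
    · obtain ⟨i, hi, hz⟩ := ih h'
      exact ⟨i, Finset.mem_insert_of_mem hi, hz⟩
    · obtain ⟨x, hx⟩ : ∃ x, Polynomial.aeval f (∏ i ∈ s, (Polynomial.X - Polynomial.C (μ i))) x ≠ 0 := by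
        by_contra hno
        push Not at hno
        exact h' (LinearMap.ext hno)
      refine ⟨a, Finset.mem_insert_self a s, _, hx, sub_eq_zero.1 ?_⟩
      have := LinearMap.congr_fun h x
      rwa [Module.End.mul_apply, map_sub, Polynomial.aeval_X, Polynomial.aeval_C,
        LinearMap.sub_apply, LinearMap.zero_apply, Module.algebraMap_end_apply] at this

variable {G : Type u} [Group G] [Finite G] {V : Type u} [AddCommGroup V] [DistribMulAction G V]
  [Finite V] [Nontrivial V] [FaithfulSMul G V]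

set_option maxHeartbeats 1000000 in
theorem triple_of_primitive (hs : Group.IsSolvable G) (hirr : Irr G V) (hnim : ¬ Imprim G V) :
    ∃ a b c : V, RegTriple G V a b c := by
  classical
  obtain ⟨K, fK, mK, hKfin, ⟨D⟩⟩ := exists_layer hs hirr hnim
  letI := fK
  letI := mK
  haveI := hKfin
  -- the stabiliser of a line in the layer
  let Lv : V → Subgroup G := fun v => D.E ⊓
    { carrier := {x | x ∈ D.E ∧ ∃ k : K, k ≠ 0 ∧ x • v = k • v}
      one_mem' := ⟨D.E.one_mem, 1, one_ne_zero, by rw [one_smul, one_smul]⟩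
      mul_mem' := by
        rintro x y ⟨hx, k, hk0, hk⟩ ⟨hy, l, hl0, hl⟩
        exact ⟨D.E.mul_mem hx hy, l * k, mul_ne_zero hl0 hk0, by
          rw [mul_smul, hl, D.linE hx, hk, smul_smul]⟩
      inv_mem' := by
        rintro x ⟨hx, k, hk0, hk⟩
        exact ⟨D.E.inv_mem hx, k⁻¹, inv_ne_zero hk0, by
          rw [inv_smul_eq_iff, D.linE hx, hk, smul_smul, inv_mul_cancel₀ hk0, one_smul]⟩ }
  haveI : Nonempty {w : V // w ≠ 0} := let ⟨w, hw⟩ := exists_ne (0 : V); ⟨⟨w, hw⟩⟩
  obtain ⟨⟨v, hv⟩, hmax⟩ := Finite.exists_max fun w : {w : V // w ≠ 0} => Nat.card (Lv w)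
  let L := Lv v
  have hLE : L ≤ D.E := inf_le_left
  have hLk : ∀ l ∈ L, ∃ k : K, k ≠ 0 ∧ l • v = k • v := fun l hl => hl.2.2
  have hUL : D.U ≤ L := fun u hu => by
    obtain ⟨k, hk0, hk⟩ := D.u_smul hu
    exact ⟨D.U_le hu, D.U_le hu, k, hk0, hk v⟩
  have memL : ∀ x ∈ D.E, ∀ k : K, x • v = k • v → x ∈ L := fun x hx k hk => ⟨hx, hx, k, fun h => hv (by
    rw [h, zero_smul] at hk; exact (smul_eq_zero_iff_eq x).1 hk), hk⟩
  have hLcomm : ∀ a ∈ L, ∀ b ∈ L, a * b = b * a := by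
    intro a ha b hb
    obtain ⟨k, hk0, hk⟩ := hLk a ha
    obtain ⟨l, hl0, hl⟩ := hLk b hb
    refine cm_eq_one.1 (D.u_fix (D.E_comm a (hLE ha) b (hLE hb)) hv ?_)
    have h1 : (a * b) • v = (l * k) • v := by rw [mul_smul, hl, D.linE (hLE ha), hk, smul_smul]
    have h2 : (b * a) • v = (l * k) • v := by
      rw [mul_smul, hk, D.linE (hLE hb), hl, smul_smul, mul_comm]
    rw [show cm a b = (a * b) * (b * a)⁻¹ by simp only [cm]; group, mul_smul,
      show (b * a)⁻¹ • v = (l * k)⁻¹ • v by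
        rw [inv_smul_eq_iff, D.linE (D.E.mul_mem (hLE hb) (hLE ha)), h2, smul_smul,
          inv_mul_cancel₀ (mul_ne_zero hl0 hk0), one_smul],
      D.linE (D.E.mul_mem (hLE ha) (hLE hb)), h1, smul_smul,
      inv_mul_cancel₀ (mul_ne_zero hl0 hk0), one_smul]
  let L0 : Subgroup G := D.E ⊓ Subgroup.centralizer (L : Set G)
  have hL0 : ∀ {t}, t ∈ L0 → ∀ l ∈ L, l * t = t * l := fun ht l hl =>
    Subgroup.mem_centralizer_iff.1 ht.2 l hl
  have hLL0 : L ≤ L0 := fun a ha =>
    ⟨hLE ha, Subgroup.mem_centralizer_iff.2 fun b hb => hLcomm b hb a ha⟩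
  -- weights
  let Wt : G → V → Prop := fun g z => ∀ l ∈ L, ∀ k : K, l • v = k • v → l • z = k • (cm l g • z)
  have hWt : ∀ g ∈ D.E, Wt g (g • v) := by
    intro g hg l hl k hk
    rw [← mul_smul, cm_mul_eq l g, mul_smul, mul_smul, hk, D.linE hg,
      D.linE (D.U_le (D.E_comm l (hLE hl) g hg))]
  let V0 : Submodule K V :=
    { carrier := {z | ∀ l ∈ L, ∀ k : K, l • v = k • v → l • z = k • z}
      zero_mem' := fun l _ k _ => by rw [smul_zero, smul_zero]
      add_mem' := fun {a b} ha hb l hl k hk => by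
        rw [smul_add, ha l hl k hk, hb l hl k hk, smul_add]
      smul_mem' := fun c a ha l hl k hk => by
        rw [D.linE (hLE hl), ha l hl k hk, smul_comm] }
  haveI : Nontrivial V0 := ⟨⟨⟨v, fun l _ k hk => hk⟩, 0, fun h => hv (congrArg Subtype.val h)⟩⟩
  -- maximality: no element of `L0` outside `L` has an eigenvector among the weight vectors
  have noeigen : ∀ x ∈ L0, ∀ z ∈ V0, z ≠ 0 → ∀ μ : K, x • z = μ • z → x ∈ L := by
    intro x hx z hz hz0 μ hμ
    have hle : L ≤ Lv z := fun l hl => by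
      obtain ⟨k, hk0, hk⟩ := hLk l hl
      exact ⟨hLE hl, hLE hl, k, hk0, hz l hl k hk⟩
    have hxz : x ∈ Lv z := ⟨hx.1, hx.1, μ, fun h => hz0 (by
      rw [h, zero_smul] at hμ; exact (smul_eq_zero_iff_eq x).1 hμ), hμ⟩
    by_contra hxL
    have hlt : Nat.card L < Nat.card (Lv z) := by
      refine lt_of_le_of_ne (Nat.le_of_dvd Nat.card_pos (Subgroup.card_dvd_of_le hle)) fun he => hxL ?_
      rw [Subgroup.eq_of_le_of_card_ge hle he.ge]
      exact hxz
    exact absurd (hmax ⟨z, hz0⟩) (not_le.2 hlt)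
  have hinv0 : ∀ x ∈ L0, ∀ z ∈ V0, x • z ∈ V0 := by
    intro x hx z hz l hl k hk
    rw [← mul_smul, hL0 hx l hl, mul_smul, hz l hl k hk, D.linE hx.1]
  let res : ∀ x, x ∈ L0 → Module.End K V0 := fun x hx =>
    { toFun := fun z => ⟨x • (z : V), hinv0 x hx z z.2⟩
      map_add' := fun a b => Subtype.ext (smul_add x (a : V) (b : V))
      map_smul' := fun c a => Subtype.ext (D.linE hx.1 c (a : V)) }
  have hres : ∀ x (hx : x ∈ L0) (n : ℕ) (z : V0), (((res x hx) ^ n) z : V) = x ^ n • (z : V) := by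
    intro x hx n
    induction n with
    | zero => intro z; rw [pow_zero, pow_zero, one_smul]; rfl
    | succ n ih =>
      intro z
      rw [pow_succ, pow_succ, Module.End.mul_apply, ih, mul_smul]
      rfl
  -- roots of odd prime order are in `L`
  have hodd : ∀ x ∈ L0, ∀ r : ℕ, r.Prime → r ≠ 2 → x ^ r ∈ L → x ∈ L := by
    intro x hx r hr hr2 hxr
    obtain ⟨a, m, hm, hN⟩ := Nat.exists_eq_pow_mul_and_not_dvd (orderOf_pos x).ne' r hr.ne_one
    have h1 : (x ^ m) ^ r ^ a ∈ D.U := by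
      rw [← pow_mul, mul_comm, ← hN, pow_orderOf_eq_one]; exact D.U.one_mem
    have hx1E : x ^ m ∈ D.E := D.E.pow_mem hx.1 m
    have h2 := D.pow_mem_of_pow hx1E h1
    have back : x ^ m ∈ L → x ∈ L := fun h => by
      obtain ⟨s, t, hst⟩ := (((Nat.prime_iff_prime_int.1 hr).coprime_iff_not_dvd).2
        (show ¬ (r : ℤ) ∣ (m : ℤ) from fun h => hm (Int.natCast_dvd_natCast.1 h)))
      have : x = (x ^ r) ^ s * (x ^ m) ^ t := by
        rw [← zpow_natCast, ← zpow_natCast, ← zpow_mul, ← zpow_mul, ← zpow_add,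
          show (r : ℤ) * s + (m : ℤ) * t = 1 by linarith, zpow_one]
      rw [this]
      exact L.mul_mem (L.zpow_mem hxr s) (L.zpow_mem h t)
    refine back ?_
    by_contra hx1L
    have hx10 : x ^ m ∈ L0 := L0.pow_mem hx m
    obtain ⟨k, hk0, hk⟩ := D.odd_power hx1E hr hr2 h2
    obtain ⟨y, hy, hne⟩ : ∃ y ∈ D.E, cm (x ^ m) y ≠ 1 := by
      by_contra hno
      push Not at hno
      exact hx1L (hUL (D.center_le D.E_normal D.U_le le_rfl hx1E fun y hy => cm_eq_one.1 (hno y hy)))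
    obtain ⟨c, hc0, hc⟩ := D.u_smul (D.E_comm _ hx1E y hy)
    have hcr : c ^ r = 1 := by
      refine Layer.smul_inj hv ?_
      have hpow : ∀ n : ℕ, cm (x ^ m) y ^ n • v = c ^ n • v := by
        intro n
        induction n with
        | zero => rw [pow_zero, pow_zero, one_smul, one_smul]
        | succ n ih =>
          rw [pow_succ', mul_smul, ih, hc, smul_smul, pow_succ']
      rw [← hpow r, ← D.cm_pow_left hx1E hy, one_smul,
        show cm ((x ^ m) ^ r) y = 1 from cm_eq_one.2 (D.comm_U hy h2), one_smul]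
    have hc1 : c ≠ 1 := fun h => hne (eq_of_smul_eq_smul (α := V) fun w => by
      rw [hc, h, one_smul, one_smul])
    have hζ : IsPrimitiveRoot c r := by
      have := IsPrimitiveRoot.orderOf c
      rwa [haveI := Fact.mk hr; orderOf_eq_prime hcr hc1] at this
    have hP : Polynomial.aeval (res (x ^ m) hx10)
        (∏ i ∈ Finset.range r, (Polynomial.X - Polynomial.C (c ^ i * k))) = 0 := by
      rw [← X_pow_sub_C_eq_prod hζ hr.pos (rfl : k ^ r = k ^ r), map_sub, map_pow, Polynomial.aeval_X,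
        Polynomial.aeval_C, sub_eq_zero]
      refine LinearMap.ext fun z => Subtype.ext ?_
      rw [hres _ hx10, hk, Module.algebraMap_end_apply]
      rfl
    obtain ⟨i, -, z, hz0, hz⟩ := exists_eigen _ _ _ hP
    exact hx1L (noeigen _ hx10 z z.2 (fun h => hz0 (Subtype.ext h)) _ (congrArg Subtype.val hz))
  -- so the quotient has exponent two
  have hoddord : ∀ n, ∀ x ∈ L0, orderOf x = n → Odd n → x ∈ L := by
    intro n
    induction n using Nat.strong_induction_on with
    | _ n ih =>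
      intro x hx hn hnodd
      by_cases h1 : n = 1
      · rw [← hn, orderOf_eq_one_iff] at h1; rw [h1]; exact L.one_mem
      obtain ⟨r, hr, hrd⟩ := Nat.exists_prime_and_dvd h1
      have hr2 : r ≠ 2 := fun h => by
        subst h; exact (Nat.not_even_iff_odd.2 hnodd) (even_iff_two_dvd.2 hrd)
      refine hodd x hx r hr hr2 (ih (n / r) (Nat.div_lt_self (by rcases hnodd with ⟨k, rfl⟩; omega)
        hr.one_lt) _ (L0.pow_mem hx r) ?_ (hnodd.of_dvd_nat (Nat.div_dvd_of_dvd hrd)))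
      rw [orderOf_pow' x hr.ne_zero, hn, Nat.gcd_eq_right hrd]
  have hsq : ∀ x ∈ L0, x * x ∈ L := by
    intro x hx
    obtain ⟨a, m, hm, hN⟩ := Nat.exists_eq_pow_mul_and_not_dvd (orderOf_pos x).ne' 2 (by norm_num)
    have hm0 : m ≠ 0 := by rintro rfl; exact hm (dvd_zero 2)
    have hA : x ^ 2 ^ a ∈ L := by
      refine hoddord _ _ (L0.pow_mem hx _) rfl ?_
      rw [orderOf_pow' x (pow_ne_zero a two_ne_zero), hN, Nat.gcd_mul_right_left,
        Nat.mul_div_cancel_left _ (pow_pos two_pos a)]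
      exact Nat.odd_iff.2 (by omega)
    have hB : (x ^ m) ^ 2 ∈ L := hUL (D.pow_mem_of_pow (D.E.pow_mem hx.1 m) (r := 2) (a := a) (by
      rw [← pow_mul, mul_comm, ← hN, pow_orderOf_eq_one]; exact D.U.one_mem))
    obtain ⟨k, rfl⟩ : Odd m := Nat.odd_iff.2 (by omega)
    rcases a with _ | a
    · rw [pow_zero, pow_one] at hA; exact L.mul_mem hA hA
    have h2 : (x ^ 2) ^ 2 ^ a ∈ L := by
      rw [← pow_mul, ← pow_succ']; exact hA
    have h3 : (x ^ 2) ^ (2 * k + 1) ∈ L := by rw [← pow_mul, mul_comm, pow_mul]; exact hB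
    obtain ⟨s, t, hst⟩ : IsCoprime ((2 ^ a : ℕ) : ℤ) ((2 * k + 1 : ℕ) : ℤ) :=
      Int.isCoprime_iff_nat_coprime.2 (by
        simp only [Int.natAbs_natCast]
        exact Nat.Coprime.pow_left a (Nat.coprime_two_left.2 ⟨k, rfl⟩))
    have : x * x = ((x ^ 2) ^ 2 ^ a) ^ s * ((x ^ 2) ^ (2 * k + 1)) ^ t := by
      rw [← zpow_natCast (x ^ 2), ← zpow_natCast (x ^ 2), ← zpow_mul, ← zpow_mul, ← zpow_add,
        mul_comm _ s, mul_comm _ t, hst, zpow_one, pow_two]
    rw [this]
    exact L.mul_mem (L.zpow_mem h2 s) (L.zpow_mem h3 t)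
  -- squares outside `L` are not squares of scalars
  have sqval : ∀ x ∈ L0, x ∉ L → ∃ a : Kˣ, (∀ k : K, k ^ 2 ≠ (a : K)) ∧ (x * x) • v = (a : K) • v := by
    intro x hx hxL
    obtain ⟨k₁, hk₁0, hk₁⟩ := hLk _ (hsq x hx)
    refine ⟨Units.mk0 k₁ hk₁0, fun k hk => hxL ?_, hk₁⟩
    have hP : Polynomial.aeval (res x hx)
        (∏ i ∈ (Finset.univ : Finset Bool), (Polynomial.X - Polynomial.C (if i then k else -k))) = 0 := by
      refine LinearMap.ext fun z => Subtype.ext ?_
      rw [Fintype.prod_bool, map_mul]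
      simp only [map_sub, Polynomial.aeval_X, Polynomial.aeval_C, if_true, Bool.false_eq_true, if_false,
        Module.End.mul_apply, LinearMap.sub_apply, Module.algebraMap_end_apply, LinearMap.zero_apply]
      show x • (x • (z : V)) - k • (x • (z : V)) - (x • ((-k) • (z : V)) - k • ((-k) • (z : V))) = 0
      rw [D.linE hx.1, ← mul_smul, z.2 _ (hsq x hx) k₁ hk₁,
        show k₁ = k ^ 2 from hk.symm]
      generalize x • (z : V) = w
      module
    obtain ⟨i, -, z, hz0, hz⟩ := exists_eigen _ _ _ hP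
    exact noeigen x hx z z.2 (fun h => hz0 (Subtype.ext h)) _ (congrArg Subtype.val hz)
  obtain ⟨g₀, hg₀⟩ := IsCyclic.exists_generator (α := Kˣ)
  have hsqodd : ∀ a : Kˣ, (∀ k : K, k ^ 2 ≠ (a : K)) → ∃ j : ℤ, a = g₀ ^ (2 * j + 1) := by
    intro a ha
    obtain ⟨i, hi⟩ := hg₀ a
    obtain ⟨j, rfl | rfl⟩ := Int.even_or_odd' i
    · refine absurd ?_ (ha ((g₀ ^ j : Kˣ) : K))
      rw [← Units.val_pow_eq_pow_val, ← hi, ← zpow_natCast, ← zpow_mul, mul_comm]
      rfl
    · exact ⟨j, hi.symm⟩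
  -- generators of `L0` over `L`
  have hgen : (∀ t ∈ L0, t ∈ L) ∨ ∃ d ∈ L0, ∃ y ∈ L0, y ∉ L ∧ ∀ t ∈ L0,
      t ∈ L ∨ d⁻¹ * t ∈ L ∨ y⁻¹ * t ∈ L ∨ (d * y)⁻¹ * t ∈ L := by
    by_cases h : ∀ t ∈ L0, t ∈ L
    · exact Or.inl h
    right
    push Not at h
    obtain ⟨d, hd, hdL⟩ := h
    by_cases hcl : ∀ t ∈ L0, t ∈ L ∨ d⁻¹ * t ∈ L
    · exact ⟨d, hd, d, hd, hdL, fun t ht => (hcl t ht).imp_right Or.inl⟩
    push Not at hcl
    obtain ⟨y, hy, hyL, hdy⟩ := hcl
    refine ⟨d, hd, y, hy, hyL, fun t ht => ?_⟩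
    -- distinct non-trivial classes anticommute
    have anti : ∀ a ∈ L0, ∀ b ∈ L0, a ∉ L → b ∉ L → a⁻¹ * b ∉ L →
        cm a b ≠ 1 ∧ cm a b * cm a b = 1 := by
      intro a ha b hb haL hbL habL
      refine ⟨fun h => ?_, ?_⟩
      · have hab : a * b = b * a := cm_eq_one.1 h
        obtain ⟨ka, hka, hka'⟩ := sqval a ha haL
        obtain ⟨kb, hkb, hkb'⟩ := sqval b hb hbL
        have hprod : a * b ∉ L := fun hL => habL (by
          have : a⁻¹ * b = (a * a)⁻¹ * (a * b) := by group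
          rw [this]
          exact L.mul_mem (L.inv_mem (hsq a ha)) hL)
        obtain ⟨kc, hkc, hkc'⟩ := sqval (a * b) (L0.mul_mem ha hb) hprod
        obtain ⟨i, hi⟩ := hsqodd ka hka
        obtain ⟨j, hj⟩ := hsqodd kb hkb
        have he : (kc : K) = ((ka * kb : Kˣ) : K) := Layer.smul_inj hv (by
          rw [← hkc', show a * b * (a * b) = (a * a) * (b * b) by
              rw [mul_assoc, ← mul_assoc b, ← hab]; group,
            mul_smul, hkb', D.linE (D.E.mul_mem ha.1 ha.1), hka', smul_smul, Units.val_mul,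
            mul_comm])
        refine hkc ((g₀ ^ (i + j + 1) : Kˣ) : K) ?_
        rw [he, hi, hj, ← zpow_add, ← Units.val_pow_eq_pow_val, ← zpow_natCast, ← zpow_mul]
        congr 2
        push_cast
        ring
      · rw [← D.cm_mul_left ha.1 ha.1 hb.1]
        exact cm_eq_one.2 (hL0 hb _ (hsq a ha))
    by_contra hno
    simp only [not_or] at hno
    obtain ⟨ht0, htd, hty, htdy⟩ := hno
    obtain ⟨kdt, hdt⟩ := anti d hd t ht hdL ht0 htd
    obtain ⟨kyt, hyt⟩ := anti y hy t ht hyL ht0 hty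
    have hdyL : d * y ∉ L := fun h => hdy (by
      rw [show d⁻¹ * y = (d * d)⁻¹ * (d * y) by group]
      exact L.mul_mem (L.inv_mem (hsq d hd)) h)
    obtain ⟨kdyt, -⟩ := anti (d * y) (L0.mul_mem hd hy) t ht hdyL ht0 htdy
    refine kdyt ?_
    rw [D.cm_mul_left hd.1 hy.1 ht.1]
    obtain ⟨c1, -, hc1⟩ := D.u_smul (D.E_comm d hd.1 t ht.1)
    obtain ⟨c2, -, hc2⟩ := D.u_smul (D.E_comm y hy.1 t ht.1)
    have hsq1 : ∀ (g : G) (c : K), (∀ w : V, g • w = c • w) → g ≠ 1 → g * g = 1 → c = -1 := by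
      intro g c hc hg hgg
      have h1 : c * c = 1 := Layer.smul_inj hv (by rw [← smul_smul, ← hc, ← hc, ← mul_smul, hgg,
        one_smul, one_smul])
      rcases mul_self_eq_one_iff.1 h1 with h | h
      · exact absurd (eq_of_smul_eq_smul (α := V) fun w => by rw [hc, h, one_smul, one_smul]) hg
      · exact h
    refine eq_of_smul_eq_smul (α := V) fun w => ?_
    rw [mul_smul, hc2, hc1, hsq1 _ c1 hc1 kdt hdt, hsq1 _ c2 hc2 kyt hyt, smul_smul, one_smul]
    simp
  -- the positions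
  let L0E : Subgroup D.E := L0.subgroupOf D.E
  have hUL0 : D.U ≤ L0 := hUL.trans hLL0
  haveI : L0E.Normal := by
    refine ⟨fun a ha g => ?_⟩
    rw [Subgroup.mem_subgroupOf] at ha ⊢
    have : ((g * a * g⁻¹ : D.E) : G) = cm (g : G) a * a := by simp [cm]
    rw [this]
    exact L0.mul_mem (hUL0 (D.E_comm g g.2 a a.2)) ha
  let Q := D.E ⧸ L0E
  letI : CommGroup Q :=
    { (inferInstance : Group Q) with
      mul_comm := fun a b => by
        induction a using QuotientGroup.induction_on with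
        | _ x =>
          induction b using QuotientGroup.induction_on with
          | _ y =>
            refine (QuotientGroup.eq).2 (Subgroup.mem_subgroupOf.2 (hUL0 ?_))
            have := D.E_comm _ (D.E.inv_mem y.2) _ (D.E.inv_mem x.2)
            simpa [cm, mul_assoc] using this }
  let M := Additive Q
  let rep : M → D.E := fun φ => (Additive.toMul φ).out
  let cls : D.E → M := fun x => Additive.ofMul (QuotientGroup.mk x)
  have hrep : ∀ φ, cls (rep φ) = φ := fun φ =>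
    congrArg Additive.ofMul (QuotientGroup.out_eq' (Additive.toMul φ))
  have hcls : ∀ x y : D.E, cls x = cls y ↔ (x : G)⁻¹ * y ∈ L0 := fun x y =>
    (Additive.ofMul.apply_eq_iff_eq.trans QuotientGroup.eq).trans Subgroup.mem_subgroupOf
  have hcls0 : ∀ x : D.E, (x : G) ∈ L0 → cls x = 0 := fun x hx =>
    congrArg Additive.ofMul ((QuotientGroup.eq_one_iff x).2 (Subgroup.mem_subgroupOf.2 hx))
  have hWt' : ∀ (x y : D.E), cls x = cls y → ∀ z, Wt (x : G) z → Wt (y : G) z := by
    intro x y h z hz l hl k hk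
    have ht := (hcls x y).1 h
    rw [hz l hl k hk, show cm l (y : G) = cm l (x : G) by
      rw [show (y : G) = x * ((x : G)⁻¹ * y) by group, D.cm_mul_right (hLE hl) x.2 ht.1,
        cm_eq_one.2 (hL0 ht l hl), mul_one]]
  haveI := Fintype.ofFinite M
  have hindep : ∀ (s : Finset M) (z : M → V), (∀ φ ∈ s, Wt (rep φ : G) (z φ)) →
      ∑ φ ∈ s, z φ = 0 → ∀ φ ∈ s, z φ = 0 := by
    intro s
    induction s using Finset.induction_on with
    | empty => intro z _ _ φ h; simp at h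
    | insert φ₀ s hφ₀ ih =>
      intro z hz hsum
      have hzero : ∀ φ ∈ s, z φ = 0 := by
        intro φ hφ
        have hne : φ ≠ φ₀ := fun h => hφ₀ (h ▸ hφ)
        obtain ⟨l, hl, hlne⟩ : ∃ l ∈ L, cm l (rep φ₀ : G) ≠ cm l (rep φ : G) := by
          by_contra hno
          push Not at hno
          refine hne (((hrep φ).symm.trans ((hcls (rep φ) (rep φ₀)).2 ?_)).trans (hrep φ₀))
          refine ⟨D.E.mul_mem (D.E.inv_mem (rep φ).2) (rep φ₀).2,
            Subgroup.mem_centralizer_iff.2 fun l hl => cm_eq_one.1 ?_⟩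
          have h1 := D.cm_mul_right (hLE hl) (rep φ).2
            (D.E.mul_mem (D.E.inv_mem (rep φ).2) (rep φ₀).2)
          rw [mul_inv_cancel_left, hno l hl] at h1
          exact mul_eq_left.1 h1.symm
        obtain ⟨k, hk0, hk⟩ := hLk l hl
        obtain ⟨c₀, -, hc₀⟩ := D.u_smul (D.E_comm l (hLE hl) (rep φ₀ : G) (rep φ₀).2)
        let z' : M → V := fun ψ => l • z ψ - (k * c₀) • z ψ
        have hsum' : ∑ ψ ∈ s, z' ψ = 0 := by
          have h0 : z' φ₀ = 0 := by
            show l • z φ₀ - (k * c₀) • z φ₀ = 0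
            rw [hz φ₀ (Finset.mem_insert_self _ _) l hl k hk, hc₀, smul_smul, sub_self]
          have : ∑ ψ ∈ insert φ₀ s, z' ψ = 0 := by
            simp only [z', Finset.sum_sub_distrib, ← Finset.smul_sum, hsum, smul_zero, sub_self]
          rwa [Finset.sum_insert hφ₀, h0, zero_add] at this
        have hz' := ih z' (fun ψ hψ l' hl' k' hk' => by
          show l' • (l • z ψ - (k * c₀) • z ψ) = _
          have hψ' := hz ψ (Finset.mem_insert_of_mem hψ) l' hl' k' hk'
          obtain ⟨c', -, hc'⟩ := D.u_smul (D.E_comm l' (hLE hl') (rep ψ : G) (rep ψ).2)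
          rw [hc'] at hψ' ⊢
          rw [smul_sub, ← mul_smul, hLcomm l' hl' l hl, mul_smul, D.linE (hLE hl'), hψ',
            D.linE (hLE hl), D.linE (hLE hl)]
          simp only [z', smul_sub, smul_smul]
          congr 2
          ring) hsum' φ hφ
        obtain ⟨c₁, -, hc₁⟩ := D.u_smul (D.E_comm l (hLE hl) (rep φ : G) (rep φ).2)
        have h2 : ((k * c₁) - (k * c₀)) • z φ = 0 := by
          rw [sub_smul]
          have := hz φ (Finset.mem_insert_of_mem hφ) l hl k hk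
          rw [hc₁, smul_smul] at this
          rw [← this]
          exact hz'
        refine (smul_eq_zero.1 h2).resolve_left fun h => hlne ?_
        refine eq_of_smul_eq_smul (α := V) fun w => ?_
        rw [hc₀, hc₁, mul_left_cancel₀ hk0 (sub_eq_zero.1 h)]
      intro φ hφ
      rcases Finset.mem_insert.1 hφ with rfl | hφ
      · rwa [Finset.sum_insert hφ₀, Finset.sum_eq_zero hzero, add_zero] at hsum
      · exact hzero φ hφ
  obtain ⟨n, ⟨Co⟩⟩ := exists_coords M
  obtain ⟨P, Q', hP0, hQ0, hδ, hpairs, hrig⟩ := Co.exists_rigid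
  -- the components at the origin
  obtain ⟨e2, e3, he2, he3, hfix0⟩ : ∃ e2 e3 : V, Wt 1 e2 ∧ Wt 1 e3 ∧ ∀ s : G, s • v = v →
      (∀ l ∈ L, s * l * s⁻¹ ∈ L) → s • e2 = e2 → s • e3 = e3 → s ∈ Subgroup.centralizer (D.U : Set G) ∧
        ∀ t ∈ L0, t ∈ L ∨ ∃ d y : G, d ∈ L0 ∧ y ∈ L0 ∧ s • (d • v) = d • v ∧ s • (y • v) = y • v ∧
          (d⁻¹ * t ∈ L ∨ y⁻¹ * t ∈ L ∨ (d * y)⁻¹ * t ∈ L) := by
    have hσ : ∀ s : G, D.S.σ s (g₀ : K) = g₀ → s ∈ Subgroup.centralizer (D.U : Set G) := by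
      intro s hs
      refine Subgroup.mem_centralizer_iff.2 fun u hu => eq_of_smul_eq_smul (α := V) fun w => ?_
      obtain ⟨k, hk0, hk⟩ := D.u_smul hu
      have hσk : D.S.σ s k = k := by
        obtain ⟨i, hi⟩ := hg₀ (Units.mk0 k hk0)
        have hu' : Units.map (D.S.σ s).toMonoidHom g₀ = g₀ := Units.ext hs
        have h := congrArg Units.val (show Units.map (D.S.σ s).toMonoidHom (g₀ ^ i) = g₀ ^ i by
          rw [map_zpow, hu'])
        change D.S.σ s ((g₀ ^ i : Kˣ) : K) = _ at h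
        rwa [show ((g₀ ^ i : Kˣ) : K) = k from congrArg Units.val hi] at h
      rw [mul_smul, mul_smul, hk, hk, D.S.smul_σ, hσk]
    have hWt1 : ∀ (t : G), t ∈ L0 → ∀ c : K, Wt 1 (c • (t • v)) := fun t ht c l hl k hk => by
      rw [D.linE (hLE hl), hWt t ht.1 l hl k hk, cm_eq_one.2 (hL0 ht l hl),
        cm_eq_one.2 (by rw [mul_one, one_mul] : l * 1 = 1 * l), one_smul, one_smul, smul_comm]
    rcases hgen with hL | ⟨d, hd, y, hy, hyL, hcov⟩
    · refine ⟨(g₀ : K) • v, 0, ?_, fun l _ k _ => by simp, fun s hsv _ h2 _ =>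
        ⟨hσ s ?_, fun t ht => Or.inl (hL t ht)⟩⟩
      · simpa using hWt1 1 L0.one_mem (g₀ : K)
      · rw [D.S.smul_σ, hsv] at h2
        exact Layer.smul_inj hv h2
    obtain ⟨a, ha, hay⟩ := sqval y hy hyL
    obtain ⟨j, hj⟩ := hsqodd a ha
    let k₀ : Kˣ := g₀ ^ (-j)
    have hk₀ : (k₀ : K) ^ 2 * a = g₀ := by
      rw [← Units.val_pow_eq_pow_val, ← Units.val_mul, hj, ← zpow_natCast, ← zpow_mul, ← zpow_add]
      conv_rhs => rw [← zpow_one g₀]
      congr 2
      push_cast; ring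
    refine ⟨d • v, (k₀ : K) • (y • v), ?_, hWt1 y hy _, fun s hsv hnorm h2 h3 => ?_⟩
    · simpa using hWt1 d hd 1
    have hy' : (s * y * s⁻¹) • v = s • (y • v) := by
      rw [mul_smul, mul_smul, show s⁻¹ • v = v from inv_smul_eq_iff.2 hsv.symm]
    rw [D.S.smul_σ, ← hy'] at h3
    have hσ0 : D.S.σ s (k₀ : K) ≠ 0 := (map_ne_zero _).2 k₀.ne_zero
    obtain ⟨μ, hμdef⟩ : ∃ μ : K, μ = (D.S.σ s (k₀ : K))⁻¹ * k₀ := ⟨_, rfl⟩
    have hμ : (s * y * s⁻¹) • v = μ • (y • v) := by
      rw [show μ • (y • v) = (D.S.σ s (k₀ : K))⁻¹ • ((k₀ : K) • (y • v)) by rw [hμdef, smul_smul],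
        ← h3, inv_smul_smul₀ hσ0]
    have hy'E : s * y * s⁻¹ ∈ D.E := D.E_normal.conj_mem y hy.1 s
    have hcomm : y * (s * y * s⁻¹) = (s * y * s⁻¹) * y := by
      have hmem : y⁻¹ * (s * y * s⁻¹) ∈ L := memL _ (D.E.mul_mem (D.E.inv_mem hy.1) hy'E) μ (by
        rw [mul_smul, hμ, D.linE (D.E.inv_mem hy.1), inv_smul_smul])
      have := hL0 hy _ hmem
      calc y * (s * y * s⁻¹) = y * ((y * (y⁻¹ * (s * y * s⁻¹)))) := by group
        _ = y * ((y⁻¹ * (s * y * s⁻¹)) * y) := by rw [this]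
        _ = _ := by group
    have hfix : D.S.σ s ((k₀ : K) ^ 2 * a) = (k₀ : K) ^ 2 * a := by
      have h1 : D.S.σ s a = μ ^ 2 * a := by
        refine Layer.smul_inj hv ?_
        calc D.S.σ s a • v = s • ((y * y) • v) := by rw [hay, D.S.smul_σ, hsv]
          _ = ((s * y * s⁻¹) * (s * y * s⁻¹)) • v := by
            rw [show (s * y * s⁻¹) * (s * y * s⁻¹) = s * (y * y) * s⁻¹ by group,
              mul_smul (s * (y * y)) s⁻¹ v, show s⁻¹ • v = v from inv_smul_eq_iff.2 hsv.symm,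
              mul_smul s (y * y) v]
          _ = μ • (((s * y * s⁻¹) * y) • v) := by
            rw [mul_smul (s * y * s⁻¹) (s * y * s⁻¹) v, hμ, D.linE hy'E, mul_smul (s * y * s⁻¹) y v]
          _ = μ • (y • ((s * y * s⁻¹) • v)) := by rw [← hcomm, mul_smul]
          _ = (μ ^ 2 * a) • v := by
            rw [hμ, D.linE hy.1, ← mul_smul y y, hay, smul_smul, smul_smul, pow_two]
      rw [map_mul, map_pow, h1]
      rw [hμdef]
      field_simp
    rw [hk₀] at hfix
    have hsB := hσ s hfix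
    have hk : D.S.σ s (k₀ : K) = k₀ := D.S.σ_centralizer s hsB _
    rw [hk, hy'] at h3
    refine ⟨hsB, fun t ht => ?_⟩
    rcases hcov t ht with h | h
    · exact Or.inl h
    · exact Or.inr ⟨d, y, hd, hy, h2, (smul_right_inj k₀.ne_zero).1 h3, h⟩
  -- the vectors
  let F : Set M → V → M → V := fun S e φ => if φ = 0 then e else if φ ∈ S then (rep φ : G) • v else 0
  refine ⟨v, ∑ φ, F P e2 φ, ∑ φ, F Q' e3 φ, fun s hsv hs2 hs3 => ?_⟩
  suffices hs1 : s = 1 by intro x; rw [hs1, one_smul]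
  have hsv' : s⁻¹ • v = v := inv_smul_eq_iff.2 hsv.symm
  have hconjv : ∀ g : G, (s * g * s⁻¹) • v = s • (g • v) := fun g => by
    rw [mul_smul, mul_smul, hsv']
  have hLs : ∀ l ∈ L, ∀ (s : G), s • v = v → s * l * s⁻¹ ∈ L := fun l hl s hsv => by
    obtain ⟨k, hk0, hk⟩ := hLk l hl
    refine memL _ (D.E_normal.conj_mem l (hLE hl) s) (D.S.σ s k) ?_
    rw [mul_smul, mul_smul, inv_smul_eq_iff.2 hsv.symm, hk, D.S.smul_σ, hsv]
  have hL0s : ∀ t ∈ L0, ∀ (s : G), s • v = v → s * t * s⁻¹ ∈ L0 := fun t ht s hsv =>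
    ⟨D.E_normal.conj_mem t ht.1 s, Subgroup.mem_centralizer_iff.2 fun l hl => by
      have h := hL0 ht _ (hLs l hl s⁻¹ (inv_smul_eq_iff.2 hsv.symm))
      rw [inv_inv] at h
      calc l * (s * t * s⁻¹) = s * ((s⁻¹ * l * s) * t) * s⁻¹ := by group
        _ = _ := by rw [h]; group⟩
  let cE : D.E → D.E := fun x => ⟨s * x * s⁻¹, D.E_normal.conj_mem x x.2 s⟩
  have hcEcls : ∀ x y : D.E, cls x = cls y → cls (cE x) = cls (cE y) := fun x y h => by
    rw [hcls] at h ⊢
    show (s * (x : G) * s⁻¹)⁻¹ * (s * y * s⁻¹) ∈ L0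
    rw [show (s * (x : G) * s⁻¹)⁻¹ * (s * y * s⁻¹) = s * ((x : G)⁻¹ * y) * s⁻¹ by group]
    exact hL0s _ h s hsv
  have hclsmul : ∀ x y : D.E, cls (x * y) = cls x + cls y := fun x y => rfl
  let f : M →+ M := AddMonoidHom.mk' (fun φ => cls (cE (rep φ))) fun a b => by
    rw [hcEcls (rep (a + b)) (rep a * rep b) (by rw [hrep, hclsmul, hrep, hrep]), ← hclsmul]
    congr 1
    exact Subtype.ext (by simp [cE, mul_assoc])
  have hfinj : Function.Injective f := by
    intro a b h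
    change cls (cE (rep a)) = cls (cE (rep b)) at h
    rw [hcls] at h
    rw [← hrep a, ← hrep b, hcls]
    change (s * (rep a : G) * s⁻¹)⁻¹ * (s * (rep b : G) * s⁻¹) ∈ L0 at h
    have := hL0s _ h s⁻¹ hsv'
    rwa [show s⁻¹ * ((s * (rep a : G) * s⁻¹)⁻¹ * (s * (rep b : G) * s⁻¹)) * s⁻¹⁻¹ =
      (rep a : G)⁻¹ * rep b by group] at this
  have hFwt : ∀ (S : Set M) (e : V), Wt 1 e → ∀ φ, Wt (rep φ : G) (F S e φ) := by
    intro S e he φ
    simp only [F]
    split_ifs with h0 h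
    · refine hWt' 1 (rep φ) ?_ e he
      rw [hrep, h0]
      exact hcls0 1 L0.one_mem
    · exact hWt _ (rep φ).2
    · intro l _ k _; simp
  have hsWt : ∀ φ z, Wt (rep φ : G) z → Wt (rep (f φ) : G) (s • z) := by
    intro φ z hz
    refine hWt' (cE (rep φ)) _ (hrep _).symm _ ?_
    intro l hl k hk
    obtain ⟨k', hk'0, hk'⟩ := hLk _ (hLs l hl s⁻¹ hsv')
    have hkk : k = D.S.σ s k' := Layer.smul_inj hv (by
      rw [← hk]
      have h := congrArg (s • ·) hk'
      simp only [D.S.smul_σ, hsv] at h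
      rwa [← mul_smul, show s * (s⁻¹ * l * s⁻¹⁻¹) = l * s by group, mul_smul, hsv] at h)
    have h := congrArg (s • ·) (hz _ (hLs l hl s⁻¹ hsv') k' hk')
    simp only [← mul_smul] at h
    rw [show s * (s⁻¹ * l * s⁻¹⁻¹) = l * s by group, mul_smul] at h
    rw [h, D.S.smul_σ, ← hkk, ← mul_smul, ← mul_smul]
    congr 2
    show s * cm (s⁻¹ * l * s⁻¹⁻¹) (rep φ : G) = cm l (s * (rep φ : G) * s⁻¹) * s
    simp only [cm]; group
  have hcomp : ∀ (S : Set M) (e : V), Wt 1 e → s • ∑ φ, F S e φ = ∑ φ, F S e φ →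
      ∀ φ, s • F S e φ = F S e (f φ) := by
    intro S e he hsum φ
    let σ := Equiv.ofBijective f ⟨hfinj, Finite.injective_iff_surjective.1 hfinj⟩
    have hz : ∀ ψ, Wt (rep ψ : G) (s • F S e (σ.symm ψ) - F S e ψ) := by
      intro ψ l hl k hk
      have h1 := hsWt _ _ (hFwt S e he (σ.symm ψ))
      rw [show f (σ.symm ψ) = ψ from σ.apply_symm_apply ψ] at h1
      rw [smul_sub, h1 l hl k hk, hFwt S e he ψ l hl k hk, ← smul_sub, ← smul_sub]
    have hsum' : ∑ ψ, (s • F S e (σ.symm ψ) - F S e ψ) = 0 := by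
      rw [Finset.sum_sub_distrib, sub_eq_zero, ← Finset.smul_sum, Equiv.sum_comp σ.symm (F S e)]
      exact hsum
    have h := hindep Finset.univ _ (fun ψ _ => hz ψ) hsum' (f φ) (Finset.mem_univ _)
    rw [show σ.symm (f φ) = φ from σ.symm_apply_apply φ, sub_eq_zero] at h
    exact h
  have h2 := hcomp P e2 he2 hs2
  have h3 := hcomp Q' e3 he3 hs3
  have hpres : ∀ (S : Set M) (e : V), (0 : M) ∉ S → (∀ φ, s • F S e φ = F S e (f φ)) →
      ∀ φ, f φ ∈ S ↔ φ ∈ S := by
    intro S e h0 h φ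
    by_cases hφ : φ = 0
    · rw [hφ, map_zero]
    have hfφ : f φ ≠ 0 := fun e => hφ (hfinj (e.trans (map_zero f).symm))
    have key : ∀ ψ, ψ ≠ 0 → (F S e ψ ≠ 0 ↔ ψ ∈ S) := fun ψ hψ => by
      simp only [F, if_neg hψ]
      by_cases hm : ψ ∈ S
      · simp [hm, smul_eq_zero_iff_eq, hv]
      · simp [hm]
    rw [← key _ hfφ, ← key _ hφ, ← h, ne_eq, smul_eq_zero_iff_eq]
  have hf : ∀ φ, f φ = φ := hrig f hfinj (hpres P e2 hP0 h2) (hpres Q' e3 hQ0 h3)
  have hphi : ∀ φ ∈ P ∪ Q', φ ≠ 0 → s • ((rep φ : G) • v) = (rep φ : G) • v := by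
    rintro φ (hm | hm) hφ
    · have h := h2 φ; rw [hf φ] at h; simpa only [F, if_neg hφ, if_pos hm] using h
    · have h := h3 φ; rw [hf φ] at h; simpa only [F, if_neg hφ, if_pos hm] using h
  have horig : ∀ (S : Set M) (e : V), (∀ φ, s • F S e φ = F S e (f φ)) → s • e = e := fun S e h => by
    have := h 0
    simpa [F] using this
  obtain ⟨hsB, hL0gen⟩ := hfix0 s hsv (fun l hl => hLs l hl s hsv) (horig P e2 h2) (horig Q' e3 h3)
  -- elements whose translates are fixed
  let Φ : G → Prop := fun x => s • (x • v) = x • v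
  let C : G → G := fun x => x⁻¹ * (s * x * s⁻¹)
  have hC : ∀ x ∈ D.E, C x ∈ D.E := fun x hx =>
    D.E.mul_mem (D.E.inv_mem hx) (D.E_normal.conj_mem x hx s)
  have hCv : ∀ x, Φ x → C x • v = v := fun x h => by
    rw [mul_smul, hconjv, show s • (x • v) = x • v from h, inv_smul_smul]
  have hΦL : ∀ l ∈ L, Φ l := fun l hl => by
    obtain ⟨k, hk0, hk⟩ := hLk l hl
    show s • (l • v) = l • v
    rw [hk, D.S.smul_σ, D.S.σ_centralizer s hsB, hsv]
  have hclos : ∀ x ∈ D.E, Φ x → ∀ t ∈ L0, Φ t → Φ (x * t) := by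
    intro x hx hΦx t ht hΦt
    have hCL : C x ∈ L := memL _ (hC x hx) 1 (by rw [hCv x hΦx, one_smul])
    show s • ((x * t) • v) = (x * t) • v
    rw [mul_smul, ← mul_smul s x, show s * x = (x * C x) * s by simp only [C]; group, mul_smul,
      show s • (t • v) = t • v from hΦt, mul_smul, ← mul_smul (C x) t, hL0 ht _ hCL, mul_smul,
      hCv x hΦx]
  have hΦ0 : ∀ t ∈ L0, Φ t := by
    intro t ht
    rcases hL0gen t ht with h | ⟨d, y, hd, hy, hdv, hyv, hcase⟩
    · exact hΦL t h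
    have step : ∀ x ∈ L0, Φ x → x⁻¹ * t ∈ L → Φ t := fun x hx hΦx hl => by
      have h := hclos x hx.1 hΦx _ (hLL0 hl) (hΦL _ hl)
      rwa [mul_inv_cancel_left] at h
    rcases hcase with h | h | h
    · exact step d hd hdv h
    · exact step y hy hyv h
    · exact step _ (L0.mul_mem hd hy) (hclos d hd.1 hdv y hy hyv) h
  let Γ : Set G := (L0 : Set G) ∪ Set.range fun i => (rep (Co.δ i) : G)
  have hΓE : ∀ g ∈ Γ, g ∈ D.E := by
    rintro g (hg | ⟨i, rfl⟩)
    · exact hg.1
    · exact (rep (Co.δ i)).2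
  have hΦrep : ∀ i, Φ (rep (Co.δ i) : G) := fun i => hphi _ (hδ i) (Co.δ_ne i)
  have hΦΓ : ∀ g ∈ Γ, Φ g := by
    rintro g (hg | ⟨i, rfl⟩)
    · exact hΦ0 g hg
    · exact hΦrep i
  have hrel : ∀ x y : D.E, cls x = cls y → Φ (x : G) → Φ (y : G) := fun x y h hΦ => by
    have hm := (hcls x y).1 h
    have := hclos _ x.2 hΦ _ hm (hΦ0 _ hm)
    rwa [mul_inv_cancel_left] at this
  have hΦpair : ∀ g ∈ Γ, ∀ h ∈ Γ, Φ (g * h) := by
    intro g hg h hh
    rcases hh with hh | ⟨j, rfl⟩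
    · exact hclos g (hΓE g hg) (hΦΓ g hg) h hh (hΦ0 h hh)
    rcases hg with hg | ⟨i, rfl⟩
    · set h : G := (rep (Co.δ j) : G) with hh
      have hm : g * cm g⁻¹ h⁻¹ ∈ L0 :=
        L0.mul_mem hg (hUL0 (D.E_comm _ (D.E.inv_mem hg.1) _ (D.E.inv_mem (rep (Co.δ j)).2)))
      have := hclos h (rep (Co.δ j)).2 (hΦrep j) _ hm (hΦ0 _ hm)
      rwa [show h * (g * cm g⁻¹ h⁻¹) = g * h by
        simp only [cm]
        group] at this
    · refine (Subgroup.coe_mul D.E (rep (Co.δ i)) (rep (Co.δ j))) ▸ ?_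
      by_cases h0 : Co.δ i + Co.δ j = 0
      · refine hΦ0 _ ?_
        have : cls (1 : D.E) = cls (rep (Co.δ i) * rep (Co.δ j)) := by
          rw [hclsmul, hrep, hrep, h0]; exact hcls0 1 L0.one_mem
        simpa using (hcls _ _).1 this
      · exact hrel (rep (Co.δ i + Co.δ j)) _ (by rw [hclsmul, hrep, hrep, hrep])
          (hphi _ (hpairs ⟨h0, i, j, rfl⟩) h0)
  -- the layer is generated by these elements
  have hgenE : D.E ≤ Subgroup.closure Γ := by
    intro x hx
    let S : AddSubgroup M :=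
      { carrier := {φ | (rep φ : G) ∈ Subgroup.closure Γ}
        zero_mem' := Subgroup.subset_closure (Or.inl (by
          have h := (hcls 1 (rep 0)).1 (by rw [hrep]; exact hcls0 1 L0.one_mem)
          simpa using h))
        add_mem' := fun {a b} ha hb => by
          have h := (hcls (rep a * rep b) (rep (a + b))).1 (by rw [hclsmul, hrep, hrep, hrep])
          have := mul_mem (mul_mem ha hb) (Subgroup.subset_closure (k := Γ) (Or.inl h))
          simpa [mul_assoc] using this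
        neg_mem' := fun {a} ha => by
          have h := (hcls (rep a)⁻¹ (rep (-a))).1 (by
            rw [hrep]
            exact (congrArg Neg.neg (hrep a)))
          have := mul_mem (inv_mem ha) (Subgroup.subset_closure (k := Γ) (Or.inl h))
          simpa [mul_assoc] using this }
    have hS : S = ⊤ := eq_top_iff.2 (Co.gen ▸ (AddSubgroup.closure_le _).2 (by
      rintro _ ⟨i, rfl⟩; exact Subgroup.subset_closure (Or.inr ⟨i, rfl⟩)))
    have hxS : cls ⟨x, hx⟩ ∈ S := hS ▸ AddSubgroup.mem_top _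
    have h := (hcls (rep (cls ⟨x, hx⟩)) ⟨x, hx⟩).1 (hrep _)
    have := mul_mem (show (rep (cls ⟨x, hx⟩) : G) ∈ Subgroup.closure Γ from hxS)
      (Subgroup.subset_closure (k := Γ) (Or.inl h))
    rwa [mul_inv_cancel_left] at this
  have hCone : ∀ g ∈ Γ, s * g = g * s := by
    intro g hg
    have hgE := hΓE g hg
    have hfix : C g • v = v := hCv g (hΦΓ g hg)
    have hall : ∀ h ∈ Γ, h * C g = C g * h := by
      intro h hh
      have hhE := hΓE h hh
      have h1 : s • ((g * h) • v) = (g * h) • v := hΦpair g hg h hh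
      rw [mul_smul, ← mul_smul s g, show s * g = (g * C g) * s by simp only [C]; group, mul_smul,
        show s • (h • v) = h • v from hΦΓ h hh, mul_smul] at h1
      have h2 : C g • (h • v) = h • v := MulAction.injective g h1
      refine (cm_eq_one.1 ?_).symm
      have hU := D.E_comm _ (hC g hgE) h hhE
      refine D.u_fix hU (v := h • v) (fun e => hv ((smul_eq_zero_iff_eq h).1 e)) ?_
      rw [← mul_smul, show cm (C g) h * h = C g * h * (C g)⁻¹ by simp only [cm]; group,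
        mul_smul, mul_smul, inv_smul_eq_iff.2 hfix.symm, h2]
    have hcent : ∀ y ∈ D.E, C g * y = y * C g := fun y hy => by
      have hle : Subgroup.closure Γ ≤ Subgroup.centralizer ({C g} : Set G) :=
        (Subgroup.closure_le _).2 fun h hh => Subgroup.mem_centralizer_iff.2 fun z hz => by
          rw [Set.mem_singleton_iff.1 hz]; exact (hall h hh).symm
      exact Subgroup.mem_centralizer_iff.1 (hle (hgenE hy)) _ rfl
    have hU := D.center_le D.E_normal D.U_le le_rfl (hC g hgE) hcent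
    have h1 := D.u_fix hU hv hfix
    have h' : s * g * s⁻¹ = g := (inv_mul_eq_one.1 h1).symm
    rwa [mul_inv_eq_iff_eq_mul] at h'
  have hsE : ∀ y ∈ D.E, s * y = y * s := fun y hy => by
    have hle : Subgroup.closure Γ ≤ Subgroup.centralizer ({s} : Set G) :=
      (Subgroup.closure_le _).2 fun h hh => Subgroup.mem_centralizer_iff.2 fun z hz => by
        rw [Set.mem_singleton_iff.1 hz]; exact hCone h hh
    exact Subgroup.mem_centralizer_iff.1 (hle (hgenE hy)) s rfl
  exact D.u_fix (D.cent_E s hsB hsE) hv hsv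

end Cfsg.Agent.H67.Base3
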